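/-
A trivial intersection subgroup `M` inverted by an involution `z`, all of whose nontrivial elements
have centralisers of odd order: cosets, involutions and two-point stabilisers.
-/
import Mathlib

set_option autoImplicit false
set_option linter.style.haveILetI false

open scoped Pointwise

namespace CfsgLib.TIInverted

variable {G : Type*} [Group G]

/-- The normaliser of `M`. -/
abbrev NN (M : Subgroup G) : Subgroup G := Subgroup.normalizer (M : Set G)

/-- The centraliser of `z` in the normaliser of `M`. -/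
abbrev CC (M : Subgroup G) (z : G) : Subgroup G := NN M ⊓ Subgroup.centralizer ({z} : Set G)

/-- The hypotheses. -/
structure Ctx (M : Subgroup G) (z : G) : Prop where
  ne : M ≠ ⊥
  ti : ∀ g : G, M ⊓ M.map (MulAut.conj g).toMonoidHom ≠ ⊥ → M.map (MulAut.conj g).toMonoidHom = M
  z2 : orderOf z = 2
  zN : z ∈ NN M
  fac : M ⊔ CC M z = NN M
  odd : ∀ x ∈ M, x ≠ 1 → Odd (Nat.card (Subgroup.centralizer ({x} : Set G)))

/-- Every coset of `M` outside the normaliser contains an involution. -/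
def Full (M : Subgroup G) : Prop := ∀ g : G, g ∉ NN M → ∃ m ∈ M, g * m * (g * m) = 1

theorem commute_of_conj {x y : G} (h : x * y * x⁻¹ = y) : Commute x y :=
  mul_inv_eq_iff_eq_mul.mp h

namespace Ctx

variable {M : Subgroup G} {z : G} (h : Ctx M z)
include h

theorem zz : z * z = 1 := by rw [← pow_two, ← h.z2, pow_orderOf_eq_one]

theorem z_inv : z⁻¹ = z := inv_eq_of_mul_eq_one_right h.zz

theorem z_ne : z ≠ 1 := fun e => by have := h.z2; rw [e, orderOf_one] at this; omega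

theorem mem_C {c : G} : c ∈ CC M z ↔ c ∈ NN M ∧ Commute c z := by
  rw [Subgroup.mem_inf, Subgroup.mem_centralizer_singleton_iff]
  exact and_congr_right fun _ => ⟨fun e => e, fun e => e⟩

theorem zC : z ∈ CC M z := h.mem_C.2 ⟨h.zN, Commute.refl z⟩

omit h in
theorem conjM {n x : G} (hn : n ∈ NN M) (hx : x ∈ M) : n * x * n⁻¹ ∈ M :=
  (Subgroup.mem_normalizer_iff.1 hn x).1 hx

omit h in
theorem conjM' {n x : G} (hn : n ∈ NN M) (hx : x ∈ M) : n⁻¹ * x * n ∈ M := by
  simpa using conjM (Subgroup.inv_mem _ hn) hx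

omit h in
theorem M_le : M ≤ NN M := Subgroup.le_normalizer

/-- The TI property. -/
theorem ti' {g x : G} (h1 : x ≠ 1) (hx : x ∈ M) (hx' : g⁻¹ * x * g ∈ M) : g ∈ NN M := by
  refine Subgroup.mem_normalizer_iff_map_conj_eq.2 (h.ti g fun e => h1 ?_)
  exact (Subgroup.eq_bot_iff_forall _).1 e x ⟨hx, ⟨_, hx', by simp [mul_assoc]⟩⟩

theorem cent_le {g x : G} (h1 : x ≠ 1) (hx : x ∈ M) (hc : Commute g x) : g ∈ NN M :=
  h.ti' h1 hx (by rwa [mul_assoc, ← hc.eq, inv_mul_cancel_left])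

theorem not_comm {u x : G} (h1 : x ≠ 1) (hx : x ∈ M) (hu : u * u = 1) (hc : Commute u x) :
    u = 1 := by
  by_contra hne
  have h2 : orderOf u = 2 := orderOf_eq_prime (by rw [pow_two, hu]) hne
  have hm : u ∈ Subgroup.centralizer ({x} : Set G) := Subgroup.mem_centralizer_singleton_iff.2 hc.eq
  have := Subgroup.orderOf_dvd_natCard _ hm
  rw [h2] at this
  exact (Nat.not_even_iff_odd.2 (h.odd x hx h1)) (even_iff_two_dvd.2 this)

variable [Finite G]

theorem inverts {u x : G} (huN : u ∈ NN M) (hu : u * u = 1) (h1 : u ≠ 1) (hx : x ∈ M) :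
    u * x * u⁻¹ = x⁻¹ := by
  have hinj : Function.Injective (fun y : M => (⟨(y : G)⁻¹ * (u * y * u⁻¹),
      M.mul_mem (M.inv_mem y.2) (conjM huN y.2)⟩ : M)) := by
    intro a b hab
    have e : (a : G)⁻¹ * (u * a * u⁻¹) = (b : G)⁻¹ * (u * b * u⁻¹) := congrArg Subtype.val hab
    apply Subtype.ext
    by_contra hne
    refine h1 (h.not_comm (x := (b : G) * (a : G)⁻¹) (fun e1 => hne (mul_inv_eq_one.1 e1).symm)
      (M.mul_mem b.2 (M.inv_mem a.2)) hu (commute_of_conj ?_))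
    calc u * ((b : G) * (a : G)⁻¹) * u⁻¹
        = (b : G) * ((b : G)⁻¹ * (u * b * u⁻¹)) * (u * a * u⁻¹)⁻¹ := by group
      _ = (b : G) * ((a : G)⁻¹ * (u * a * u⁻¹)) * (u * a * u⁻¹)⁻¹ := by rw [e]
      _ = (b : G) * (a : G)⁻¹ := by group
  obtain ⟨y, hy⟩ := Finite.surjective_of_injective hinj ⟨x, hx⟩
  have e : (y : G)⁻¹ * (u * y * u⁻¹) = x := congrArg Subtype.val hy
  rw [← e]
  calc u * ((y : G)⁻¹ * (u * y * u⁻¹)) * u⁻¹
      = (u * (y : G)⁻¹ * u⁻¹) * ((u * u) * y * (u * u)⁻¹) := by group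
    _ = ((y : G)⁻¹ * (u * y * u⁻¹))⁻¹ := by rw [hu]; group

theorem zinv {x : G} (hx : x ∈ M) : z * x * z = x⁻¹ := by
  have := h.inverts h.zN h.zz h.z_ne hx
  rwa [h.z_inv] at this

theorem comm {x y : G} (hx : x ∈ M) (hy : y ∈ M) : Commute x y := by
  have e := h.zinv (M.mul_mem hx hy)
  have e2 : z * (x * y) * z = x⁻¹ * y⁻¹ := by
    calc z * (x * y) * z = z * x * (z * z) * (y * z) := by rw [h.zz]; group
      _ = (z * x * z) * (z * y * z) := by group
      _ = x⁻¹ * y⁻¹ := by rw [h.zinv hx, h.zinv hy]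
  rw [e2] at e
  exact inv_injective (by rw [mul_inv_rev, mul_inv_rev]; rw [mul_inv_rev] at e; rw [← e])

theorem odd_card : Odd (Nat.card M) := by
  obtain ⟨⟨x, hx⟩, hx1⟩ := Subgroup.ne_bot_iff_exists_ne_one.1 h.ne
  refine (h.odd x hx fun e => hx1 (Subtype.ext e)).of_dvd_nat (Subgroup.card_dvd_of_le fun y hy => ?_)
  exact Subgroup.mem_centralizer_singleton_iff.2 (h.comm hy hx).eq

theorem eq_one_of_sq {x : G} (hx : x ∈ M) (h2 : x * x = 1) : x = 1 := by
  by_contra hne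
  have ho : orderOf x = 2 := orderOf_eq_prime (by rw [pow_two, h2]) hne
  have := Subgroup.orderOf_dvd_natCard _ hx
  rw [ho] at this
  exact (Nat.not_even_iff_odd.2 h.odd_card) (even_iff_two_dvd.2 this)

theorem half {m : G} (hm : m ∈ M) : ∃ y ∈ M, y * y = m := by
  obtain ⟨k, hk⟩ := h.odd_card
  refine ⟨m ^ (k + 1), M.pow_mem hm _, ?_⟩
  have : m ^ Nat.card M = 1 := congrArg Subtype.val (pow_card_eq_one' (x := (⟨m, hm⟩ : M)))
  rw [← pow_add, show k + 1 + (k + 1) = Nat.card M + 1 by omega, pow_succ, this, one_mul]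

theorem MC_bot {x : G} (hx : x ∈ M) (hxC : x ∈ CC M z) : x = 1 := by
  by_contra hne
  exact h.z_ne (h.not_comm hne hx h.zz (h.mem_C.1 hxC).2.symm)

theorem decomp {n : G} (hn : n ∈ NN M) : ∃ m ∈ M, ∃ c ∈ CC M z, n = m * c := by
  have : n ∈ ((M ⊔ CC M z : Subgroup G) : Set G) := by rw [h.fac]; exact hn
  rw [Subgroup.coe_mul_of_right_le_normalizer_left M (CC M z) inf_le_left] at this
  obtain ⟨m, hm, c, hc, rfl⟩ := this
  exact ⟨m, hm, c, hc, rfl⟩

theorem dec_unique {m m' c c' : G} (hm : m ∈ M) (hm' : m' ∈ M) (hc : c ∈ CC M z)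
    (hc' : c' ∈ CC M z) (e : m * c = m' * c') : c = c' := by
  have e1 : m'⁻¹ * m = c' * c⁻¹ := by
    calc m'⁻¹ * m = m'⁻¹ * (m * c) * c⁻¹ := by group
      _ = c' * c⁻¹ := by rw [e]; group
  have := h.MC_bot (M.mul_mem (M.inv_mem hm') hm)
    (e1 ▸ (CC M z).mul_mem hc' ((CC M z).inv_mem hc))
  rw [e1] at this
  exact (mul_inv_eq_one.1 this).symm

theorem inv_C {c : G} (hc : c ∈ CC M z) (hcc : c * c = 1) (h1 : c ≠ 1) : c = z := by
  obtain ⟨hcN, hcz⟩ := h.mem_C.1 hc
  obtain ⟨⟨x, hx⟩, hx1⟩ := Subgroup.ne_bot_iff_exists_ne_one.1 h.ne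
  have hw : c * z * (c * z) = 1 := by
    rw [mul_assoc, ← mul_assoc z, ← hcz.eq, mul_assoc c z, h.zz, mul_one, hcc]
  have hwc : Commute (c * z) x := by
    apply commute_of_conj
    calc c * z * x * (c * z)⁻¹ = c * (z * x * z⁻¹) * c⁻¹ := by group
      _ = x := by
        rw [h.inverts h.zN h.zz h.z_ne hx, h.inverts hcN hcc h1 (M.inv_mem hx), inv_inv]
  rw [mul_eq_one_iff_eq_inv.1 (h.not_comm (fun e => hx1 (Subtype.ext e)) hx hw hwc), h.z_inv]

theorem mz_inv {m : G} (hm : m ∈ M) : m * z * (m * z) = 1 := by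
  calc m * z * (m * z) = m * (z * m * z) := by group
    _ = 1 := by rw [h.zinv hm, mul_inv_cancel]

theorem mz_mem {m : G} (hm : m ∈ M) : m * z ∈ NN M :=
  (NN M).mul_mem (M_le hm) h.zN

theorem mz_ne {m : G} (hm : m ∈ M) : m * z ≠ 1 := fun e => by
  have := h.dec_unique hm M.one_mem h.zC (CC M z).one_mem (by rw [e, one_mul])
  exact h.z_ne this

/-- The involutions of the normaliser form the coset `Mz`. -/
theorem inv_N {u : G} (huN : u ∈ NN M) (hu : u * u = 1) (h1 : u ≠ 1) : ∃ m ∈ M, u = m * z := by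
  obtain ⟨m, hm, c, hc, rfl⟩ := h.decomp huN
  refine ⟨m, hm, ?_⟩
  have hcN := (h.mem_C.1 hc).1
  have e : m * (c * m * c⁻¹) * (c * c) = 1 * 1 := by
    rw [one_mul, ← hu]; group
  have hcc := h.dec_unique (M.mul_mem hm (conjM hcN hm)) M.one_mem ((CC M z).mul_mem hc hc)
    (CC M z).one_mem e
  by_cases hc1 : c = 1
  · exfalso
    rw [hc1, mul_one] at hu h1
    exact h1 (h.eq_one_of_sq hm hu)
  · rw [h.inv_C hc hcc hc1]

theorem mz_conj {m : G} (hm : m ∈ M) : ∃ y ∈ M, m * z = y * z * y⁻¹ := by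
  obtain ⟨y, hy, rfl⟩ := h.half hm
  refine ⟨y, hy, ?_⟩
  calc y * y * z = y * (z * (z * y * z)) := by
        rw [← mul_assoc z, ← mul_assoc z, h.zz]; group
    _ = y * z * y⁻¹ := by rw [h.zinv hy]; group

theorem conj_z {y : G} (hy : y ∈ M) : y * z * y⁻¹ = y * y * z := by
  calc y * z * y⁻¹ = y * z * (z * y * z) := by rw [h.zinv hy]
    _ = y * (z * z) * y * z := by group
    _ = y * y * z := by rw [h.zz, mul_one]

/-- A coset of `M` outside the normaliser contains at most one involution. -/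
theorem coset_unique {t m : G} (htN : t ∉ NN M) (ht : t * t = 1) (hm : m ∈ M)
    (hs : t * m * (t * m) = 1) : m = 1 := by
  by_contra hne
  apply htN
  refine h.ti' hne hm ?_
  rw [inv_eq_of_mul_eq_one_right ht]
  have : t * m * t = m⁻¹ := eq_inv_of_mul_eq_one_left (by rw [← hs]; group)
  rw [this]
  exact M.inv_mem hm

/-- Either every coset outside the normaliser contains an involution, or there are few involutions. -/
theorem full_or_few : Full M ∨ Nat.card {g : G // orderOf g = 2} ≤ M.index := by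
  classical
  by_cases hf : Full M
  · exact Or.inl hf
  refine Or.inr ?_
  unfold Full at hf
  push Not at hf
  obtain ⟨g, hg, hnone⟩ := hf
  haveI := Fintype.ofFinite G
  have hsq : ∀ {x : G}, orderOf x = 2 → x * x = 1 ∧ x ≠ 1 := by
    intro x hx
    exact ⟨by rw [← pow_two, ← hx, pow_orderOf_eq_one], fun e => by rw [e, orderOf_one] at hx; omega⟩
  set I := Finset.univ.filter fun x : G => orderOf x = 2
  set IN := I.filter fun x => x ∈ NN M
  set IO := I.filter fun x => x ∉ NN M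
  have h1 : IN.card ≤ Fintype.card M := by
    refine (Finset.card_le_card (t := Finset.univ.image fun m : M => (m : G) * z) ?_).trans
      Finset.card_image_le
    intro x hx
    simp only [IN, I, Finset.mem_filter, Finset.mem_univ, true_and] at hx
    obtain ⟨m, hm, rfl⟩ := h.inv_N hx.2 (hsq hx.1).1 (hsq hx.1).2
    exact Finset.mem_image.2 ⟨⟨m, hm⟩, Finset.mem_univ _, rfl⟩
  haveI := Fintype.ofFinite (G ⧸ M)
  set P := IO.image (fun x : G => (x : G ⧸ M))
  set Q := Finset.univ.image (fun c : CC M z => ((c : G) : G ⧸ M))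
  set R := Finset.univ.image (fun m : M => (((m : G) * g : G) : G ⧸ M))
  have hP : P.card = IO.card := by
    refine Finset.card_image_of_injOn fun x hx y hy e => ?_
    simp only [IO, I, Finset.coe_filter, Finset.mem_filter, Finset.mem_univ, true_and,
      Set.mem_ofPred_eq] at hx hy
    have hm := QuotientGroup.eq.1 e
    have := h.coset_unique hx.2 (hsq hx.1).1 hm
      (by rw [mul_inv_cancel_left]; exact (hsq hy.1).1)
    exact inv_mul_eq_one.1 this
  have hQ : Q.card = Fintype.card (CC M z) := by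
    refine Finset.card_image_of_injective _ fun a b e => Subtype.ext ?_
    have hm := QuotientGroup.eq.1 e
    exact inv_mul_eq_one.1 (h.MC_bot hm ((CC M z).mul_mem ((CC M z).inv_mem a.2) b.2))
  have hR : R.card = Fintype.card M := by
    refine Finset.card_image_of_injective _ fun a b e => Subtype.ext ?_
    have hm := QuotientGroup.eq.1 e
    by_contra hne
    refine hg (h.ti' (x := (a : G)⁻¹ * b) (fun e1 => hne (inv_mul_eq_one.1 e1))
      (M.mul_mem (M.inv_mem a.2) b.2) ?_)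
    simpa [mul_assoc] using hm
  have hPQ : Disjoint P Q := by
    refine Finset.disjoint_left.2 fun q hqP hqQ => ?_
    obtain ⟨x, hx, rfl⟩ := Finset.mem_image.1 hqP
    obtain ⟨c, -, hc⟩ := Finset.mem_image.1 hqQ
    have hm := QuotientGroup.eq.1 hc
    refine (Finset.mem_filter.1 hx).2 ?_
    have := (NN M).mul_mem c.2.1 (M_le hm)
    rwa [mul_inv_cancel_left] at this
  have hRn : ∀ r ∈ R, r ∉ P ∪ Q := by
    intro r hr hrPQ
    obtain ⟨m, -, rfl⟩ := Finset.mem_image.1 hr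
    rcases Finset.mem_union.1 hrPQ with hp | hq
    · obtain ⟨x, hx, e⟩ := Finset.mem_image.1 hp
      have hm := QuotientGroup.eq.1 e.symm
      simp only [IO, I, Finset.mem_filter, Finset.mem_univ, true_and] at hx
      refine hnone (((m : G) * g)⁻¹ * x * m) (M.mul_mem hm m.2) ?_
      calc g * (((m : G) * g)⁻¹ * x * m) * (g * (((m : G) * g)⁻¹ * x * m))
          = (m : G)⁻¹ * (x * x) * m := by group
        _ = 1 := by rw [(hsq hx.1).1]; group
    · obtain ⟨c, -, e⟩ := Finset.mem_image.1 hq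
      have hm := QuotientGroup.eq.1 e
      apply hg
      have := (NN M).mul_mem ((NN M).mul_mem ((NN M).inv_mem (M_le m.2)) c.2.1) (M_le hm)
      simpa [mul_assoc] using this
  have hsum : (P ∪ Q ∪ R).card ≤ Fintype.card (G ⧸ M) := Finset.card_le_univ _
  rw [Finset.card_union_of_disjoint (Finset.disjoint_left.2 fun r h1 h2 => hRn r h2 h1),
    Finset.card_union_of_disjoint hPQ, hP, hQ, hR] at hsum
  have hI : IN.card + IO.card = I.card := Finset.card_filter_add_card_filter_not _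
  rw [Subgroup.index, Nat.card_eq_fintype_card, Nat.card_eq_fintype_card, Fintype.card_subtype]
  change I.card ≤ _
  omega

section full

variable (hf : Full M)
include hf

theorem D_exists {t n : G} (htN : t ∉ NN M) (ht : t * t = 1) (hn : n ∈ NN M) :
    ∃ m ∈ M, t * (m * n) * t⁻¹ = (m * n)⁻¹ := by
  obtain ⟨m, hm, e⟩ := hf (n * t) fun e => htN (by
    simpa using (NN M).mul_mem ((NN M).inv_mem hn) e)
  refine ⟨m, hm, ?_⟩
  rw [inv_eq_of_mul_eq_one_right ht]
  calc t * (m * n) * t = n⁻¹ * (n * t * m * (n * t * m)) * m⁻¹ := by group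
    _ = (m * n)⁻¹ := by rw [e]; group

theorem meet {t x : G} (htN : t ∉ NN M) (ht : t * t = 1) (hx : x ∈ M)
    (hy : t * x * t⁻¹ ∈ NN M) : x = 1 := by
  by_contra hne
  have hti : t⁻¹ = t := inv_eq_of_mul_eq_one_right ht
  obtain ⟨m, hm, hu⟩ := h.D_exists hf htN ht h.zN
  set u := m * z with hudef
  have huu := h.mz_inv hm
  have hui : u⁻¹ = u := inv_eq_of_mul_eq_one_right huu
  rw [hui] at hu
  have hux : u * x * u⁻¹ = x⁻¹ := h.inverts (h.mz_mem hm) huu (h.mz_ne hm) hx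
  obtain ⟨m', hm', c, hc, hyc⟩ := h.decomp hy
  have huy : u * (m' * c) * u⁻¹ = (m' * c)⁻¹ := by
    rw [← hyc]
    calc u * (t * x * t⁻¹) * u⁻¹ = (t * u * t⁻¹) * (t * x * t⁻¹) * (t * u * t⁻¹)⁻¹ := by rw [hu]
      _ = t * (u * x * u⁻¹) * t⁻¹ := by group
      _ = (t * x * t⁻¹)⁻¹ := by rw [hux]; group
  obtain ⟨hcN, hcz⟩ := h.mem_C.1 hc
  have hcz' : z * c * z⁻¹ = c := hcz.symm.mul_inv_cancel
  have e : (m * (z * m' * z⁻¹) * (c * m⁻¹ * c⁻¹)) * c = (c⁻¹ * m'⁻¹ * c⁻¹⁻¹) * c⁻¹ := by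
    calc (m * (z * m' * z⁻¹) * (c * m⁻¹ * c⁻¹)) * c
        = m * (z * m' * z⁻¹) * (z * c * z⁻¹) * m⁻¹ := by rw [hcz']; group
      _ = u * (m' * c) * u⁻¹ := by rw [hudef]; group
      _ = _ := by rw [huy]; group
  have hcc : c * c = 1 := by
    have := h.dec_unique (M.mul_mem (M.mul_mem hm (conjM h.zN hm')) (conjM hcN (M.inv_mem hm)))
      (conjM ((NN M).inv_mem hcN) (M.inv_mem hm')) hc ((CC M z).inv_mem hc) e
    nth_rw 1 [this]
    exact inv_mul_cancel c
  by_cases hc1 : c = 1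
  · refine htN (h.ti' (x := t * x * t⁻¹) ?_ ?_ ?_)
    · exact fun e => hne (conj_eq_one_iff.1 e)
    · rw [hyc, hc1, mul_one]; exact hm'
    · simpa [mul_assoc] using hx
  · have hy2 : (t * x * t⁻¹) * (t * x * t⁻¹) = 1 := by
      rw [hyc, h.inv_C hc hcc hc1]
      exact h.mz_inv hm'
    refine hne (h.eq_one_of_sq hx ?_)
    have : t * (x * x) * t⁻¹ = 1 := by rw [← hy2]; group
    exact conj_eq_one_iff.1 this

/-- An involution outside the normaliser inverts the two-point stabiliser. -/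
theorem D_inv {t n : G} (htN : t ∉ NN M) (ht : t * t = 1) (hn : n ∈ NN M)
    (hn' : t * n * t⁻¹ ∈ NN M) : t * n * t⁻¹ = n⁻¹ := by
  obtain ⟨m, hm, e⟩ := h.D_exists hf htN ht hn
  have hmem : t * m * t⁻¹ ∈ NN M := by
    have e2 : t * m * t⁻¹ = (t * (m * n) * t⁻¹) * (t * n * t⁻¹)⁻¹ := by group
    rw [e2, e]
    exact (NN M).mul_mem ((NN M).inv_mem ((NN M).mul_mem (M_le hm) hn)) ((NN M).inv_mem hn')
  have := h.meet hf htN ht hm hmem
  rwa [this, one_mul] at e

theorem D_comm {t a b : G} (htN : t ∉ NN M) (ht : t * t = 1) (ha : a ∈ NN M) (hb : b ∈ NN M)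
    (ha' : t * a * t⁻¹ = a⁻¹) (hb' : t * b * t⁻¹ = b⁻¹) : Commute a b := by
  have hab : t * (a * b) * t⁻¹ = a⁻¹ * b⁻¹ := by
    rw [← ha', ← hb']; group
  have := h.D_inv hf htN ht ((NN M).mul_mem ha hb)
    (hab ▸ (NN M).mul_mem ((NN M).inv_mem ha) ((NN M).inv_mem hb))
  rw [hab, mul_inv_rev] at this
  exact inv_injective (by rw [mul_inv_rev, mul_inv_rev]; exact this.symm)

/-- An involution outside the normaliser commuting with `z` inverts `C`. -/
theorem T_inv {t c : G} (htN : t ∉ NN M) (ht : t * t = 1) (htz : Commute t z) (hc : c ∈ CC M z) :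
    t * c * t⁻¹ = c⁻¹ := by
  obtain ⟨hcN, hcz⟩ := h.mem_C.1 hc
  obtain ⟨m, hm, e⟩ := h.D_exists hf htN ht hcN
  have hz : t * z * t⁻¹ = z⁻¹ := by rw [htz.mul_inv_cancel, h.z_inv]
  have hcom : Commute (m * c) z :=
    h.D_comm hf htN ht ((NN M).mul_mem (M_le hm) hcN) h.zN e hz
  have hmz : Commute m z := by
    have := hcom.mul_left hcz.inv_left
    simpa using this
  rwa [h.MC_bot hm (h.mem_C.2 ⟨M_le hm, hmz⟩), one_mul] at e

/-- An involution outside the normaliser commutes with only one involution of the normaliser. -/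
theorem comm_unique {t m m' : G} (htN : t ∉ NN M) (ht : t * t = 1) (hm : m ∈ M) (hm' : m' ∈ M)
    (h1 : Commute t (m * z)) (h2 : Commute t (m' * z)) : m = m' := by
  refine mul_inv_eq_one.1 (h.meet hf htN ht (M.mul_mem hm (M.inv_mem hm')) ?_)
  have e : m * m'⁻¹ = (m * z) * (m' * z) := by
    rw [show m'⁻¹ = z * m' * z from (h.zinv hm').symm]; group
  rw [e, (h1.mul_right h2).mul_inv_cancel]
  exact (NN M).mul_mem (h.mz_mem hm) (h.mz_mem hm')

theorem exists_comm {t : G} (htN : t ∉ NN M) (ht : t * t = 1) :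
    ∃ y ∈ M, y⁻¹ * t * y ∉ NN M ∧ (y⁻¹ * t * y) * (y⁻¹ * t * y) = 1 ∧
      Commute (y⁻¹ * t * y) z := by
  obtain ⟨m, hm, e⟩ := h.D_exists hf htN ht h.zN
  obtain ⟨y, hy, hyz⟩ := h.mz_conj hm
  refine ⟨y, hy, fun e1 => htN ?_, ?_, ?_⟩
  · have := (NN M).mul_mem ((NN M).mul_mem (M_le hy) e1) ((NN M).inv_mem (M_le hy))
    simpa [mul_assoc] using this
  · calc y⁻¹ * t * y * (y⁻¹ * t * y) = y⁻¹ * (t * t) * y := by group
      _ = 1 := by rw [ht]; group
  · apply commute_of_conj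
    have e1 : t * (y * z * y⁻¹) * t⁻¹ = (y * z * y⁻¹) := by
      rw [← hyz, e, inv_eq_of_mul_eq_one_right (h.mz_inv hm)]
    calc y⁻¹ * t * y * z * (y⁻¹ * t * y)⁻¹ = y⁻¹ * (t * (y * z * y⁻¹) * t⁻¹) * y := by group
      _ = z := by rw [e1]; group

theorem K_C {c k : G} (hc : c ∈ CC M z) (hk : k ∉ NN M) (hkc : Commute k c) : c * c = 1 := by
  obtain ⟨hcN, hcz⟩ := h.mem_C.1 hc
  obtain ⟨m, hm, e⟩ := hf k hk
  have hs : k * m ∉ NN M := fun e1 => hk (by
    simpa using (NN M).mul_mem e1 ((NN M).inv_mem (M_le hm)))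
  have hc' : m⁻¹ * c * m ∈ NN M :=
    (NN M).mul_mem ((NN M).mul_mem ((NN M).inv_mem (M_le hm)) hcN) (M_le hm)
  have e1 : k * m * (m⁻¹ * c * m) * (k * m)⁻¹ = c := by
    calc k * m * (m⁻¹ * c * m) * (k * m)⁻¹ = k * c * k⁻¹ := by group
      _ = c := hkc.mul_inv_cancel
  have e2 := h.D_inv hf hs e hc' (by rw [e1]; exact hcN)
  rw [e1] at e2
  have := h.dec_unique M.one_mem (M.mul_mem (M.inv_mem hm)
    (conjM ((NN M).inv_mem hcN) hm)) hc ((CC M z).inv_mem hc)
    (show (1 : G) * c = (m⁻¹ * (c⁻¹ * m * c⁻¹⁻¹)) * c⁻¹ by rw [one_mul]; nth_rw 1 [e2]; group)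
  nth_rw 1 [this]
  exact inv_mul_cancel c

theorem H_inv {k : G} (hk : k ∉ NN M) (hkz : Commute k z) (hC : ∀ c ∈ CC M z, c * c = 1) :
    k * k = 1 := by
  obtain ⟨m, hm, e⟩ := hf k hk
  have hs : k * m ∉ NN M := fun e1 => hk (by
    simpa using (NN M).mul_mem e1 ((NN M).inv_mem (M_le hm)))
  have hc' : m⁻¹ * z * m ∈ NN M :=
    (NN M).mul_mem ((NN M).mul_mem ((NN M).inv_mem (M_le hm)) h.zN) (M_le hm)
  have e1 : k * m * (m⁻¹ * z * m) * (k * m)⁻¹ = z := by
    calc k * m * (m⁻¹ * z * m) * (k * m)⁻¹ = k * z * k⁻¹ := by group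
      _ = z := hkz.mul_inv_cancel
  have e2 := h.D_inv hf hs e hc' (by rw [e1]; exact h.zN)
  rw [e1] at e2
  have hmz : Commute m z := by
    apply commute_of_conj
    calc m * z * m⁻¹ = m * (m⁻¹ * z * m)⁻¹ * m⁻¹ := by rw [← e2]
      _ = z⁻¹ := by group
      _ = z := h.z_inv
  have hm1 := h.MC_bot hm (h.mem_C.2 ⟨M_le hm, hmz⟩)
  rwa [hm1, mul_one] at e

end full

end Ctx

end CfsgLib.TIInverted
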