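/-
The case in which the complement has order greater than two: a Zassenhaus group with abelian kernel.
-/
import Cfsg.Agent.Lib.TIInverted.Basic
import Cfsg.Agent.Lib.AltGroups.ZassenhausAbelian
import Cfsg.Prelude.Def_Transfer

set_option autoImplicit false
set_option linter.style.haveILetI false

open MulAction

namespace CfsgLib.TIInverted

open CfsgLib.AltGroups

universe u v w

/-- A Zassenhaus group whose two-point stabiliser is inverted and regular on the other points. -/
theorem pgl_of_inverted {G : Type u} {Ω : Type v} {A : Type w} [Group G] [Finite G] [MulAction G Ω]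
    [Fintype Ω] [AddCommGroup A] (hZ : Cfsg.IsZassenhausGroup G Ω) (C : ZCoord G Ω A)
    (W : ZCoord.Swap C) (hinv : ∀ h : C.H, W.s * (h : G) * W.s = (h : G)⁻¹)
    (hn : Nat.card A = Nat.card C.H + 1) :
    ∃ (K : Type) (_ : Field K) (_ : Fintype K), Fintype.card K + 1 = Fintype.card Ω ∧
      Nonempty (G ≃* Matrix.ProjGenLinGroup (Fin 2) K) := by
  classical
  haveI := hZ.1
  haveI : Finite A := Finite.of_injective C.pt C.pt_injective
  have h3 : ∀ g : G, ∀ a b c : Ω, a ≠ b → b ≠ c → a ≠ c → g • a = a → g • b = b → g • c = c → g = 1 :=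
    hZ.2.2.1
  have hnA : Nat.card A + 1 = Fintype.card Ω := by rw [C.card_eq_finite, Nat.card_eq_fintype_card]
  have hcomm : ∀ h k : C.H, h * k = k * h := fun h k => by
    apply inv_injective
    apply Subtype.ext
    rw [Subgroup.coe_inv, Subgroup.coe_inv, ← hinv, Subgroup.coe_mul, Subgroup.coe_mul, mul_inv_rev,
      ← hinv h, ← hinv k]
    calc W.s * ((h : G) * k) * W.s = W.s * (h : G) * (W.s * W.s) * k * W.s := by
          rw [W.sq]; group
      _ = _ := by group
  have hHpos : 0 < Nat.card C.H := Nat.card_pos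
  obtain ⟨e, he⟩ : ∃ e : A, e ≠ 0 := by
    haveI : Nontrivial A := Finite.one_lt_card_iff_nontrivial.mp (by omega)
    exact exists_ne 0
  obtain ⟨K, instK, instKf, φ, μ, hμ, hφ1, hφ⟩ := C.exists_field h3 hcomm
    (C.irreducible_of_large h3 (by omega)) e he
  haveI := Fintype.ofFinite A
  have hq : Fintype.card K = Nat.card A := by
    rw [Nat.card_eq_fintype_card]; exact Fintype.card_congr φ.toEquiv
  have hsurj : ∀ x : K, x ≠ 0 → ∃ h, (μ h : K) = x := by
    have hc : Nat.card C.H = Nat.card Kˣ := by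
      rw [Nat.card_units, Nat.card_eq_fintype_card (α := K), hq, hn, Nat.add_sub_cancel]
    have hb : Function.Bijective μ := by
      haveI := Fintype.ofFinite C.H
      rw [Fintype.bijective_iff_injective_and_card]
      exact ⟨hμ, by rw [← Nat.card_eq_fintype_card, ← Nat.card_eq_fintype_card]; exact hc⟩
    intro x hx
    obtain ⟨h, hh⟩ := hb.2 (Units.mk0 x hx)
    exact ⟨h, by rw [hh]; rfl⟩
  have hφne : ∀ {x : K}, x ≠ 0 → φ x ≠ 0 := fun {x} hx h => hx (φ.injective (by rw [h, map_zero]))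
  obtain ⟨y, hy⟩ : ∃ y : K, φ y = W.S e := ⟨φ.symm (W.S e), φ.apply_symm_apply _⟩
  have hy0 : y ≠ 0 := fun h => W.S_ne e he (by rw [← hy, h, map_zero])
  have hT : ∀ x : K, x ≠ 0 → W.S (φ x) = φ (y / x) := by
    intro x hx
    obtain ⟨h, rfl⟩ := hsurj x hx
    conv_lhs => rw [← mul_one ((μ h : K)), ← hφ, hφ1]
    rw [W.S_act h he, show (⟨W.s * (h : G) * W.s, W.conj_mem h.2⟩ : C.H) = h⁻¹ from
      Subtype.ext (hinv h), ← hy, hφ, map_inv, Units.val_inv_eq_inv_val, div_eq_mul_inv, mul_comm]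
  let eΩ : OnePoint K ≃ Ω := Equiv.ofBijective (fun p => OnePoint.elim p C.inf (fun k => C.pt (φ k))) ⟨by
    intro p p' hpp
    cases p <;> cases p'
    · rfl
    · exact absurd hpp.symm (C.pt_ne_inf _)
    · exact absurd hpp (C.pt_ne_inf _)
    · exact congrArg _ (φ.injective (C.pt_injective hpp)), by
    intro y
    by_cases hy : y = C.inf
    · exact ⟨OnePoint.infty, hy.symm⟩
    · obtain ⟨a, ha⟩ := C.exists_pt hy
      exact ⟨((φ.symm a : K) : OnePoint K), by simp [ha]⟩⟩
  have hei : eΩ OnePoint.infty = C.inf := rfl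
  have hek : ∀ k : K, eΩ (k : OnePoint K) = C.pt (φ k) := fun k => rfl
  let P : G → Prop := fun g => ∃ M : GL (Fin 2) K, ∀ p, g • eΩ p = eΩ (moebiusHom K M p)
  have hPmul : ∀ g g', P g → P g' → P (g * g') := by
    rintro g g' ⟨M, hM⟩ ⟨M', hM'⟩
    exact ⟨M * M', fun p => by rw [mul_smul, hM', hM, map_mul, Equiv.Perm.mul_apply]⟩
  have hPτ : ∀ a, P (C.τ a) := by
    intro a
    refine ⟨mkGL 1 (φ.symm a) 0 1 (by simp), fun p => ?_⟩
    cases p with
    | infty => rw [mkGL_apply_infty, hei, C.τ_inf]; simp [hei]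
    | coe k => rw [mkGL_apply_coe, hek, C.τ_pt]; simp [hek, add_comm]
  have hPH : ∀ h : C.H, P h := by
    intro h
    refine ⟨mkGL (μ h : K) 0 0 1 (by simp), fun p => ?_⟩
    cases p with
    | infty => rw [mkGL_apply_infty, hei, C.smul_inf h.2]; simp [hei]
    | coe k =>
      rw [mkGL_apply_coe, hek, C.act_pt, hφ]
      simp [hek]
  have hPs : P W.s := by
    refine ⟨mkGL 0 y 1 0 (by simp [hy0]), fun p => ?_⟩
    cases p with
    | infty =>
      rw [mkGL_apply_infty, hei, W.s_inf]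
      simp [hek]
    | coe k =>
      rw [mkGL_apply_coe, hek]
      by_cases hk : k = 0
      · subst hk
        simp [W.s_o, hei]
      · rw [← W.S_pt _ (hφne hk), hT k hk]
        simp [hek, hk]
  have hPall : ∀ g : G, P g := by
    have hfix : ∀ g : G, g • C.inf = C.inf → P g := by
      intro g hg
      obtain ⟨a, h, rfl⟩ := C.exists_decomp hg
      exact hPmul _ _ (hPτ a) (hPH h)
    intro g
    by_cases hg : g • C.inf = C.inf
    · exact hfix g hg
    · obtain ⟨a, ha⟩ := C.exists_pt hg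
      have hm : (W.s * (C.τ a)⁻¹ * g) • C.inf = C.inf := by
        rw [mul_smul, mul_smul, ← ha, ← C.τ_smul_o, inv_smul_smul, W.s_o]
      have := hPmul _ _ (hPmul _ _ (hPτ a) hPs) (hfix _ hm)
      rwa [mul_assoc W.s, mul_assoc (C.τ a), ← mul_assoc W.s W.s, W.sq, one_mul,
        mul_inv_cancel_left] at this
  refine ⟨K, instK, instKf, by omega, nonempty_mulEquiv_PGL eΩ hPall ?_⟩
  have h2 := CfsgLib.RealChar.Zassenhaus.card_group hZ (a := C.inf) (b := C.o) C.o_ne.symm
  rw [← hnA, Nat.add_sub_cancel] at h2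
  rw [h2, hq, show Nat.card (stabilizer G C.inf ⊓ stabilizer G C.o : Subgroup G) = Nat.card C.H from rfl, hn]
  have e1 : ∀ d : ℕ, (d + 1) ^ 2 - 1 = (d + 2) * d := fun d => by
    have : (d + 1) ^ 2 = (d + 2) * d + 1 := by ring
    omega
  rw [e1]; ring

variable {G : Type u} [Group G] [Finite G] {M : Subgroup G} {z : G}

/-- When the complement has an element which is not an involution, `G` is `PGL₂` or `PSL₂`. -/
theorem Ctx.large (h : Ctx M z) (hf : Full M) (hnN : ¬ M.Normal) {c : G} (hc : c ∈ CC M z)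
    (hcc : c * c ≠ 1) :
    ∃ (F : Type) (_ : Field F) (_ : Fintype F) (p : ℕ) (_ : Fact p.Prime) (_ : CharP F p),
      Fintype.card F = Nat.card M ∧ Cfsg.IsElementaryAbelian p M ∧
        (Nonempty (G ≃* (GL (Fin 2) F ⧸ Subgroup.center (GL (Fin 2) F))) ∨
         (Fintype.card F % 4 = 1 ∧ Nonempty (G ≃* Matrix.ProjectiveSpecialLinearGroup (Fin 2) F))) := by
  classical
  haveI := Fintype.ofFinite G
  obtain ⟨g0, hg0⟩ : ∃ g0 : G, g0 ∉ NN M := by
    by_contra hall
    push Not at hall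
    exact hnN (Subgroup.normalizer_eq_top_iff.1 (eq_top_iff.2 fun g _ => hall g))
  obtain ⟨m0, hm0, hm0i⟩ := hf g0 hg0
  obtain ⟨y0, -, ht0, ht0i, ht0z⟩ := h.exists_comm hf (t := g0 * m0)
    (fun e => hg0 (by simpa using (NN M).mul_mem e ((NN M).inv_mem (Ctx.M_le hm0)))) hm0i
  set t := y0⁻¹ * (g0 * m0) * y0 with htdef
  have hti : t⁻¹ = t := inv_eq_of_mul_eq_one_right ht0i
  haveI := Fintype.ofFinite (G ⧸ NN M)
  set inf : G ⧸ NN M := ((1 : G) : G ⧸ NN M) with hinf
  set o : G ⧸ NN M := ((t : G) : G ⧸ NN M) with ho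
  have hmk : ∀ a b : G, a • ((b : G) : G ⧸ NN M) = ((a * b : G) : G ⧸ NN M) := fun a b => rfl
  have hfixinf : ∀ g : G, g • inf = inf ↔ g ∈ NN M := by
    intro g
    rw [hinf, hmk, QuotientGroup.eq, mul_one, mul_one, inv_mem_iff]
  have hfixo : ∀ g : G, g • o = o ↔ t * g * t⁻¹ ∈ NN M := by
    intro g
    rw [ho, hmk, eq_comm, QuotientGroup.eq, hti, ← mul_assoc]
  have hnoinf : o ≠ inf := fun e => by
    rw [ho, hinf, QuotientGroup.eq, mul_one, inv_mem_iff] at e
    exact ht0 e
  have hminf : ∀ m ∈ M, m • inf = inf := fun m hm => (hfixinf m).2 (Ctx.M_le hm)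
  have hmo : ∀ m ∈ M, m • o = o → m = 1 := fun m hm e =>
    h.meet hf ht0 ht0i hm ((hfixo m).1 e)
  have htrans : ∀ y : G ⧸ NN M, y ≠ inf → ∃ m ∈ M, m • o = y := by
    intro y hy
    induction y using QuotientGroup.induction_on with
    | _ g =>
    have hg : g ∉ NN M := fun e => hy (by
      rw [hinf, QuotientGroup.eq, mul_one, inv_mem_iff]; exact e)
    obtain ⟨m1, hm1, hs⟩ := hf g hg
    obtain ⟨y1, hy1, hs', hs'i, hs'z⟩ := h.exists_comm hf (t := g * m1)
      (fun e => hg (by simpa using (NN M).mul_mem e ((NN M).inv_mem (Ctx.M_le hm1)))) hs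
    set s := y1⁻¹ * (g * m1) * y1 with hsdef
    have hts : t * s ∈ NN M := by
      by_contra hts
      refine hcc (h.K_C hf hc hts (commute_of_conj ?_))
      calc t * s * c * (t * s)⁻¹ = t * (s * c * s⁻¹) * t⁻¹ := by group
        _ = t * c⁻¹ * t⁻¹ := by rw [h.T_inv hf hs' hs'i hs'z hc]
        _ = c := by rw [h.T_inv hf ht0 ht0i ht0z ((CC M z).inv_mem hc), inv_inv]
    refine ⟨y1, hy1, ?_⟩
    rw [ho, hmk, QuotientGroup.eq]
    have e : (y1 * t)⁻¹ * g = t⁻¹ * s * (y1⁻¹ * m1⁻¹) := by rw [hsdef]; group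
    rw [e, hti]
    exact (NN M).mul_mem hts ((NN M).mul_mem ((NN M).inv_mem (Ctx.M_le hy1))
      ((NN M).inv_mem (Ctx.M_le hm1)))
  have hstab : ∀ g : G, g • inf = inf → g • o = o → g ∈ CC M z := by
    intro g h1 h2
    have hg := (hfixinf g).1 h1
    exact h.mem_C.2 ⟨hg, h.D_comm hf ht0 ht0i hg h.zN
      (h.D_inv hf ht0 ht0i hg ((hfixo g).1 h2))
      (by rw [ht0z.mul_inv_cancel, h.z_inv])⟩
  have hstab' : ∀ g ∈ CC M z, g • inf = inf ∧ g • o = o := fun g hg =>
    ⟨(hfixinf g).2 hg.1, (hfixo g).2 (by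
      rw [h.T_inv hf ht0 ht0i ht0z hg]; exact (NN M).inv_mem hg.1)⟩
  have hsemi : ∀ g : G, g • inf = inf → g • o = o → ∀ m ∈ M, m ≠ 1 → g • (m • o) = m • o → g = 1 := by
    intro g h1 h2 m hm hm1 h3
    have hgC := hstab g h1 h2
    have hgN := (hfixinf g).1 h1
    have hg' : m⁻¹ * g * m ∈ CC M z := by
      refine hstab _ ((hfixinf _).2 ((NN M).mul_mem ((NN M).mul_mem
        ((NN M).inv_mem (Ctx.M_le hm)) hgN) (Ctx.M_le hm))) ?_
      rw [mul_smul, mul_smul, h3, inv_smul_smul]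
    have e := h.dec_unique M.one_mem (M.mul_mem (M.inv_mem hm) (Ctx.conjM hgN hm)) hg' hgC
      (show (1 : G) * (m⁻¹ * g * m) = (m⁻¹ * (g * m * g⁻¹)) * g by group)
    have hgm : Commute g m := by
      calc g * m = m * (m⁻¹ * g * m) := by group
        _ = m * g := by rw [e]
    by_contra hne
    have hgg : g * g ≠ 1 := fun e1 => hne (h.not_comm hm1 hm e1 hgm)
    apply hm1
    refine h.meet hf ht0 ht0i hm ?_
    by_contra hk
    refine hgg (h.K_C hf hgC hk ?_)
    have := hgm.symm.map (MulAut.conj t).toMonoidHom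
    simp only [MulEquiv.toMonoidHom_eq_coe, MonoidHom.coe_coe, MulAut.conj_apply] at this
    rw [h.T_inv hf ht0 ht0i ht0z hgC] at this
    simpa using this.inv_right
  have hmove : ∀ a b : G ⧸ NN M, a ≠ b → ∃ g : G, g • a = inf ∧ g • b = o := by
    intro a b hab
    induction a using QuotientGroup.induction_on with
    | _ ga =>
    have h1 : ga⁻¹ • ((ga : G) : G ⧸ NN M) = inf := by rw [hmk, inv_mul_cancel]
    obtain ⟨m, hm, hmb⟩ := htrans (ga⁻¹ • b) (fun e => hab (MulAction.injective ga⁻¹ (h1.trans e.symm)))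
    refine ⟨m⁻¹ * ga⁻¹, ?_, ?_⟩
    · rw [mul_smul, h1, hminf _ (M.inv_mem hm)]
    · rw [mul_smul, ← hmb, inv_smul_smul]
  have h3 : ∀ g : G, ∀ a b d : G ⧸ NN M, a ≠ b → b ≠ d → a ≠ d → g • a = a → g • b = b → g • d = d →
      g = 1 := by
    intro g a b d hab hbd had ha hb hd
    obtain ⟨x, hxa, hxb⟩ := hmove a b hab
    have hconj : ∀ p : G ⧸ NN M, g • p = p → (x * g * x⁻¹) • (x • p) = x • p := fun p hp => by
      rw [mul_smul, mul_smul, inv_smul_smul, hp]
    obtain ⟨m, hm, hmd⟩ := htrans (x • d) (fun e => had (MulAction.injective x (hxa.trans e.symm)))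
    have hm1 : m ≠ 1 := fun e => hbd (MulAction.injective x (by
      simp only [hxb, ← hmd, e, one_smul]))
    exact conj_eq_one_iff.1 (hsemi _ (hxa ▸ hconj a ha) (hxb ▸ hconj b hb) m hm hm1
      (by rw [hmd]; exact hconj d hd))
  obtain ⟨⟨m1, hm1⟩, hm11⟩ := Subgroup.ne_bot_iff_exists_ne_one.1 h.ne
  replace hm11 : m1 ≠ 1 := fun e => hm11 (Subtype.ext e)
  have hZ : Cfsg.IsZassenhausGroup G (G ⧸ NN M) := by
    refine ⟨⟨fun {a b} hab => ?_⟩, MulAction.is_two_pretransitive_iff.mpr fun {a b d e} hab hde => ?_,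
      h3, ⟨z, h.z_ne, inf, o, hnoinf.symm, (hstab' z h.zC).1, (hstab' z h.zC).2⟩, fun K hK hKt => ?_⟩
    · have hfix : ∀ p : G ⧸ NN M, (b⁻¹ * a) • p = p := fun p => by
        rw [mul_smul, hab p, inv_smul_smul]
      exact (inv_mul_eq_one.1 (hsemi _ (hfix _) (hfix _) m1 hm1 hm11 (hfix _))).symm
    · obtain ⟨x, hxa, hxb⟩ := hmove a b hab
      obtain ⟨x', hxd, hxe⟩ := hmove d e hde
      exact ⟨x'⁻¹ * x, by rw [mul_smul, hxa, inv_smul_eq_iff, hxd],
        by rw [mul_smul, hxb, inv_smul_eq_iff, hxe]⟩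
    · by_contra hall
      push Not at hall
      obtain ⟨⟨k, hk⟩, hke⟩ := hKt.exists_smul_eq inf o
      have hke : k • inf = o := hke
      have hC := hstab' c hc
      have hfix : (k⁻¹ * (c * k * c⁻¹)) • inf = inf := by
        rw [mul_smul, mul_smul, mul_smul, inv_smul_eq_iff.2 hC.1.symm, hke, hC.2, inv_smul_eq_iff, hke]
      have hmem : k⁻¹ * (c * k * c⁻¹) ∈ K := K.mul_mem (K.inv_mem hk) (hK.conj_mem k hk c)
      have := congrArg Subtype.val ((Subgroup.eq_bot_iff_forall _).1 (hall inf)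
        (⟨_, hmem⟩ : K) (show (⟨_, hmem⟩ : K) • inf = inf from hfix))
      have hkN : k ∉ NN M := fun e => hnoinf (hke.symm.trans ((hfixinf k).2 e))
      exact hcc (h.K_C hf hc hkN (commute_of_conj (inv_mul_eq_one.1 this).symm).symm)
  have hMle : M ≤ stabilizer G inf := fun m hm => hminf m hm
  have hMn : (M.subgroupOf (stabilizer G inf)).Normal :=
    ⟨fun x hx n => Ctx.conjM (M := M) (x := (x : G)) ((hfixinf n).1 n.2) hx⟩
  have hMab : IsMulCommutative M := ⟨⟨fun a b => Subtype.ext (h.comm a.2 b.2)⟩⟩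
  have hreg : ∀ y y' : G ⧸ NN M, y ≠ inf → y' ≠ inf → ∃! u : M, (u : G) • y = y' := by
    intro y y' hy hy'
    obtain ⟨m, hm, rfl⟩ := htrans y hy
    obtain ⟨m', hm', rfl⟩ := htrans y' hy'
    refine ⟨⟨m' * m⁻¹, M.mul_mem hm' (M.inv_mem hm)⟩, ?_, ?_⟩
    · show (m' * m⁻¹) • m • o = m' • o
      rw [mul_smul, inv_smul_smul]
    · rintro ⟨u, hu⟩ he
      have he : u • m • o = m' • o := he
      apply Subtype.ext
      show u = m' * m⁻¹
      have h1 : (m'⁻¹ * (u * m)) • o = o := by rw [mul_smul, mul_smul, he, inv_smul_smul]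
      have h2 := hmo _ (M.mul_mem (M.inv_mem hm') (M.mul_mem hu hm)) h1
      rw [inv_mul_eq_one] at h2
      rw [h2, mul_inv_cancel_right]
  have hst : stabilizer G inf ⊓ stabilizer G o = CC M z := by
    ext g
    exact ⟨fun hg => hstab g hg.1 hg.2, fun hg => hstab' g hg⟩
  have hΩ : Nat.card M + 1 = Fintype.card (G ⧸ NN M) := by
    haveI := Fintype.ofFinite M
    rw [Nat.card_eq_fintype_card, ← Fintype.card_option]
    refine Fintype.card_of_bijective (f := fun x : Option M => x.elim inf fun m => (m : G) • o) ⟨?_, ?_⟩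
    · have hne : ∀ m : M, (m : G) • o ≠ inf := fun m e =>
        hnoinf (MulAction.injective (m : G) (e.trans (hminf _ m.2).symm))
      rintro (_ | a) (_ | b) hab
      · rfl
      · exact absurd hab.symm (hne b)
      · exact absurd hab (hne a)
      · congr 1
        refine Subtype.ext (inv_mul_eq_one.1 (hmo _ (M.mul_mem (M.inv_mem a.2) b.2) ?_))
        rw [mul_smul, ← (show (a : G) • o = (b : G) • o from hab), inv_smul_smul]
    · intro y
      by_cases hy : y = inf
      · exact ⟨none, hy.symm⟩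
      · obtain ⟨m, hm, e⟩ := htrans y hy
        exact ⟨some ⟨m, hm⟩, e⟩
  -- `M` is elementary abelian of exponent the characteristic
  have helem : ∀ (F : Type) [Field F] [Fintype F], Fintype.card F = Nat.card M →
      Nat.card M ≤ 2 * Nat.card (CC M z) + 1 →
      Fact (ringChar F).Prime ∧ Cfsg.IsElementaryAbelian (ringChar F) M := by
    intro F _ _ hcard hle
    have hp : (ringChar F).Prime := CharP.char_is_prime F (ringChar F)
    haveI : Fact (ringChar F).Prime := ⟨hp⟩
    refine ⟨⟨hp⟩, hMab, fun a ha => ?_⟩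
    set p := ringChar F
    set B : Subgroup M :=
      { carrier := {x | x ^ p = 1}
        one_mem' := one_pow p
        mul_mem' := fun {u v} hu hv => by
          show (u * v) ^ p = 1
          have hc : Commute u v := Subtype.ext (h.comm u.2 v.2)
          rw [hc.mul_pow, show u ^ p = 1 from hu, show v ^ p = 1 from hv, one_mul]
        inv_mem' := fun {u} hu => by
          show u⁻¹ ^ p = 1
          rw [inv_pow, show u ^ p = 1 from hu, inv_one] } with hB
    obtain ⟨n, -, hn⟩ := FiniteField.card F p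
    obtain ⟨x, hx⟩ := exists_prime_orderOf_dvd_card' (G := M) p
      (by rw [← hcard, hn]; exact dvd_pow_self p n.ne_zero)
    have hxB : x ∈ B := by
      show x ^ p = 1
      rw [← hx, pow_orderOf_eq_one]
    have hx1 : (x : G) ≠ 1 := fun e => by
      rw [show x = 1 from Subtype.ext e, orderOf_one] at hx
      exact hp.ne_one hx.symm
    suffices hBt : B = ⊤ by
      have : (⟨a, ha⟩ : M) ∈ B := by rw [hBt]; exact Subgroup.mem_top _
      exact congrArg Subtype.val (this : (⟨a, ha⟩ : M) ^ p = 1)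
    have hinj : Function.Injective (fun c : CC M z =>
        ((⟨⟨(c : G) * x * (c : G)⁻¹, Ctx.conjM c.2.1 x.2⟩, by
          show (⟨(c : G) * x * (c : G)⁻¹, _⟩ : M) ^ p = 1
          apply Subtype.ext
          show ((c : G) * x * (c : G)⁻¹) ^ p = 1
          rw [conj_pow, show (x : G) ^ p = 1 from congrArg Subtype.val hxB]
          group⟩ : B) : B)) := by
      intro c c' e
      have e' : (c : G) * x * (c : G)⁻¹ = (c' : G) * x * (c' : G)⁻¹ :=
        congrArg (fun b : B => ((b : M) : G)) e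
      have hmem : (c' : G)⁻¹ * c ∈ CC M z := (CC M z).mul_mem ((CC M z).inv_mem c'.2) c.2
      have hcx : Commute ((c' : G)⁻¹ * c) x := commute_of_conj (by
        calc (c' : G)⁻¹ * c * x * ((c' : G)⁻¹ * c)⁻¹ = (c' : G)⁻¹ * (c * x * (c : G)⁻¹) * c' := by group
          _ = x := by rw [e']; group)
      have hfix := hstab' _ hmem
      refine Subtype.ext (inv_mul_eq_one.1 (hsemi _ hfix.1 hfix.2 x x.2 hx1 ?_)).symm
      rw [← mul_smul, hcx.eq, mul_smul, hfix.2]
    have hlt : Nat.card (CC M z) < Nat.card B := by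
      refine lt_of_le_of_ne (Nat.card_le_card_of_injective _ hinj) fun e => ?_
      obtain ⟨cc, hcc'⟩ := ((Fintype.bijective_iff_injective_and_card _).2
        ⟨hinj, by rw [← Nat.card_eq_fintype_card, ← Nat.card_eq_fintype_card]; exact e⟩).2 1
      have : (cc : G) * x * (cc : G)⁻¹ = 1 := congrArg (fun b : B => ((b : M) : G)) hcc'
      exact hx1 (conj_eq_one_iff.1 this)
    rw [← Subgroup.index_eq_one]
    have hmul := B.card_mul_index
    have hodd : ¬ 2 ∣ B.index := fun h2 =>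
      (Nat.not_even_iff_odd.2 h.odd_card) (even_iff_two_dvd.2 (hmul ▸ h2.mul_left _))
    have hpos : B.index ≠ 0 := B.index_ne_zero_of_finite
    by_contra hne
    have h3 : 3 ≤ B.index := by omega
    have := Nat.mul_le_mul_left (Nat.card B) h3
    omega
  rcases zassenhaus_abelian_kernel hZ hnoinf M hMle hMn hMab hreg with hd | ⟨hd, K, iK, iKf, -, hK, ⟨e⟩⟩
  · -- sharply three transitive
    obtain ⟨A, instA, Co, hCinf, hCo, -⟩ := exists_zcoord hnoinf M hMle hMn hMab hreg
    have hto : t • Co.o = Co.inf := by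
      rw [hCo, hCinf, ho, hinf, hmk, ht0i]
    obtain ⟨W, hW⟩ := Co.exists_swapData ht0i hto
    have hH : Co.H = CC M z := by
      rw [← hst, ← hCinf, ← hCo]; rfl
    have hinv : ∀ g : Co.H, W.s * (g : G) * W.s = (g : G)⁻¹ := by
      intro g
      have hg : (g : G) ∈ CC M z := hH ▸ g.2
      have := h.T_inv hf ht0 ht0i ht0z hg
      rw [hW]
      rwa [hti] at this
    have hA : Nat.card A = Nat.card Co.H + 1 := by
      have h1 := Co.card_eq_finite
      rw [Nat.card_eq_fintype_card (α := G ⧸ NN M)] at h1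
      rw [hst] at hd
      rw [hH]
      omega
    obtain ⟨K, iK, iKf, hK, ⟨e⟩⟩ := pgl_of_inverted hZ Co W hinv hA
    rw [hst] at hd
    obtain ⟨hp, hel⟩ := helem K (by omega) (by omega)
    exact ⟨K, iK, iKf, ringChar K, hp, ringChar.charP K, by omega, hel, Or.inl ⟨e⟩⟩
  · rw [hst] at hd
    obtain ⟨hp, hel⟩ := helem K (by omega) (by omega)
    refine ⟨K, iK, iKf, ringChar K, hp, ringChar.charP K, by omega, hel, Or.inr ⟨?_, ⟨e⟩⟩⟩
    have h2 : 2 ∣ Nat.card (CC M z) := h.z2 ▸ Subgroup.orderOf_dvd_natCard _ h.zC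
    omega

end CfsgLib.TIInverted
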