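/-
The case in which the complement is generated by the involution: a group `PSL₂` in characteristic two,
or an elementary abelian normal 2-subgroup complemented by a dihedral group.
-/
import Cfsg.Agent.Lib.TIInverted.Basic
import Cfsg.Agent.Lib.AltGroups.SharplyThreeTransitive
import Cfsg.Agent.Lib.SharplyEven.SimpleZassenhaus
import Cfsg.Agent.Lib.SL2.Torus
import Cfsg.Agent.Lib.InvChar.BaerSuzuki
import Cfsg.Agent.Lib.Cores.FPF
import Cfsg.Agent.Lib.Cores.PCore
import Cfsg.Prelude.Def_Transfer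

set_option autoImplicit false
set_option linter.style.haveILetI false

open MulAction

namespace CfsgLib.TIInverted

universe u

variable {G : Type u} [Group G] [Finite G] {M : Subgroup G} {z : G}

namespace Ctx

variable (h : Ctx M z) (hC : ∀ c ∈ CC M z, c * c = 1)
include h hC

theorem C_eq : CC M z = Subgroup.zpowers z := by
  refine le_antisymm (fun c hc => ?_) (Subgroup.zpowers_le.2 h.zC)
  by_cases h1 : c = 1
  · rw [h1]; exact one_mem _
  · rw [h.inv_C hc (hC c hc) h1]; exact Subgroup.mem_zpowers z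

theorem card_NN : Nat.card (NN M) = 2 * Nat.card M := by
  have e : M × CC M z ≃ NN M := Equiv.ofBijective
    (fun p => ⟨(p.1 : G) * p.2, (NN M).mul_mem (M_le p.1.2) p.2.2.1⟩) ⟨by
      rintro ⟨a, c⟩ ⟨a', c'⟩ e
      have e : (a : G) * c = (a' : G) * c' := congrArg Subtype.val e
      have hc : c = c' := Subtype.ext (h.dec_unique a.2 a'.2 c.2 c'.2 e)
      subst hc
      rw [Subtype.ext (mul_right_cancel e)], fun n => by
      obtain ⟨m, hm, c, hc, e⟩ := h.decomp n.2
      exact ⟨(⟨m, hm⟩, ⟨c, hc⟩), Subtype.ext e.symm⟩⟩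
  rw [← Nat.card_congr e, Nat.card_prod, h.C_eq hC, Nat.card_zpowers, h.z2, mul_comm]

end Ctx

theorem center_SL_two_eq_bot {F : Type*} [Field F] [Fintype F] (h2 : (2 : F) = 0) :
    Subgroup.center (Matrix.SpecialLinearGroup (Fin 2) F) = ⊥ := by
  rw [Subgroup.eq_bot_iff_forall]
  intro A hA
  rw [Matrix.SpecialLinearGroup.mem_center_iff] at hA
  obtain ⟨r, hr, hrA⟩ := hA
  have hr1 : r = 1 := by
    have e : (r - 1) ^ 2 = 0 := by
      rw [Fintype.card_fin] at hr
      linear_combination hr - (r - 1) * h2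
    have := pow_eq_zero_iff (two_ne_zero) |>.1 e
    exact sub_eq_zero.1 this
  apply Subtype.ext
  rw [← hrA, hr1, map_one, Matrix.SpecialLinearGroup.coe_one]

theorem sq_eq_one_of_trace {F : Type*} [Field F] (h2 : (2 : F) = 0)
    {A : Matrix.SpecialLinearGroup (Fin 2) F}
    (ht : (A : Matrix (Fin 2) (Fin 2) F) 0 0 + (A : Matrix (Fin 2) (Fin 2) F) 1 1 = 0) :
    A * A = 1 := by
  have hd := A.2
  rw [Matrix.det_fin_two] at hd
  apply Subtype.ext
  show (A : Matrix (Fin 2) (Fin 2) F) * (A : Matrix (Fin 2) (Fin 2) F) = 1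
  ext i j
  fin_cases i <;> fin_cases j <;> simp [Matrix.mul_apply, Fin.sum_univ_two]
  · linear_combination (A : Matrix (Fin 2) (Fin 2) F) 0 0 * ht - hd - h2
  · linear_combination (A : Matrix (Fin 2) (Fin 2) F) 0 1 * ht
  · linear_combination (A : Matrix (Fin 2) (Fin 2) F) 1 0 * ht
  · linear_combination (A : Matrix (Fin 2) (Fin 2) F) 1 1 * ht - hd - h2

set_option maxHeartbeats 4000000 in
theorem Ctx.small (h : Ctx M z) (hf : Full M) (hnN : ¬ M.Normal) (hC : ∀ c ∈ CC M z, c * c = 1) :
    (∃ (F : Type) (_ : Field F) (_ : Fintype F) (e : ℕ), 1 < e ∧ Fintype.card F = 2 ^ e ∧ IsCyclic ↥M ∧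
        Nat.card M = 2 ^ e + 1 ∧ Nonempty (G ≃* Matrix.ProjectiveSpecialLinearGroup (Fin 2) F)) ∨
    (∃ (d : ℕ) (E : Subgroup G), 1 ≤ d ∧ E.Normal ∧ Cfsg.IsElementaryAbelian 2 E ∧
        Nat.card E = 2 ^ (2 * d) ∧ E ⊓ NN M = ⊥ ∧ E ⊔ NN M = ⊤ ∧
        Nonempty (↥(NN M) ≃* DihedralGroup (2 ^ d + 1))) := by
  classical
  haveI : Fact (Nat.Prime 2) := ⟨Nat.prime_two⟩
  set q := Nat.card M with hq
  set H := Subgroup.centralizer ({z} : Set G) with hH
  have hmemH : ∀ {x : G}, x ∈ H ↔ Commute x z := fun {x} => Subgroup.mem_centralizer_singleton_iff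
  have hHsq : ∀ x ∈ H, x * x = 1 := fun x hx => by
    by_cases hxN : x ∈ NN M
    · exact hC x (h.mem_C.2 ⟨hxN, hmemH.1 hx⟩)
    · exact h.H_inv hf hxN (hmemH.1 hx) hC
  have hHi : ∀ x ∈ H, x⁻¹ = x := fun x hx => inv_eq_of_mul_eq_one_right (hHsq x hx)
  have hHcomm : ∀ x ∈ H, ∀ y ∈ H, Commute x y := fun x hx y hy => by
    have e := hHi _ (H.mul_mem hx hy)
    rwa [mul_inv_rev, hHi x hx, hHi y hy, eq_comm] at e
  obtain ⟨g0, hg0⟩ : ∃ g0 : G, g0 ∉ NN M := by
    by_contra hall
    push Not at hall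
    exact hnN (Subgroup.normalizer_eq_top_iff.1 (eq_top_iff.2 fun g _ => hall g))
  -- sizes
  set T := {t : G // t ∈ H ∧ t ∉ NN M}
  set IO := {x : G // x * x = 1 ∧ x ∉ NN M}
  have hHcard : Nat.card H = Nat.card T + 2 := by
    have e1 := Nat.card_congr (Equiv.sumCompl (fun x : H => (x : G) ∈ NN M))
    rw [Nat.card_sum] at e1
    have e2 : Nat.card {x : H // (x : G) ∈ NN M} = 2 := by
      rw [Nat.card_congr (⟨fun x => ⟨x.1.1, h.mem_C.2 ⟨x.2, hmemH.1 x.1.2⟩⟩,
        fun c => ⟨⟨c.1, hmemH.2 (h.mem_C.1 c.2).2⟩, c.2.1⟩, fun _ => rfl, fun _ => rfl⟩ :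
          {x : H // (x : G) ∈ NN M} ≃ CC M z), h.C_eq hC, Nat.card_zpowers, h.z2]
    have e3 : Nat.card {x : H // ¬ (x : G) ∈ NN M} = Nat.card T :=
      Nat.card_congr ⟨fun x => ⟨x.1.1, x.1.2, x.2⟩, fun t => ⟨⟨t.1, t.2.1⟩, t.2.2⟩, fun _ => rfl,
        fun _ => rfl⟩
    omega
  have hIO : Nat.card IO = q * Nat.card T := by
    rw [hq, ← Nat.card_prod]
    symm
    refine Nat.card_congr (Equiv.ofBijective (fun p : M × T => (⟨(p.1 : G) * p.2.1 * (p.1 : G)⁻¹,
      ?_, ?_⟩ : IO)) ⟨?_, ?_⟩)
    · calc (p.1 : G) * p.2.1 * (p.1 : G)⁻¹ * ((p.1 : G) * p.2.1 * (p.1 : G)⁻¹)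
          = (p.1 : G) * ((p.2.1 : G) * p.2.1) * (p.1 : G)⁻¹ := by group
        _ = 1 := by rw [hHsq _ p.2.2.1]; group
    · intro e
      refine p.2.2.2 ?_
      have := (NN M).mul_mem ((NN M).mul_mem ((NN M).inv_mem (Ctx.M_le p.1.2)) e) (Ctx.M_le p.1.2)
      simpa [mul_assoc] using this
    · rintro ⟨m, t, htH, htN⟩ ⟨m', t', ht'H, ht'N⟩ e
      have e : (m : G) * t * (m : G)⁻¹ = (m' : G) * t' * (m' : G)⁻¹ := congrArg Subtype.val e
      set y := (m : G)⁻¹ * m' with hy
      have hyM : y ∈ M := M.mul_mem (M.inv_mem m.2) m'.2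
      have et : t = y * t' * y⁻¹ := by
        calc t = (m : G)⁻¹ * ((m : G) * t * (m : G)⁻¹) * m := by group
          _ = y * t' * y⁻¹ := by rw [e, hy]; group
      have h1 : Commute t (y * y * z) := by
        rw [← h.conj_z hyM, et]
        exact (hmemH.1 ht'H).map (MulAut.conj y).toMonoidHom
      have h2 : Commute t (1 * z) := by rw [one_mul]; exact hmemH.1 htH
      have hy1 := h.eq_one_of_sq hyM
        (h.comm_unique hf htN (hHsq t htH) (M.mul_mem hyM hyM) M.one_mem h1 h2)
      have hm : m = m' := Subtype.ext (inv_mul_eq_one.1 hy1)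
      subst hm
      have : t = t' := by rw [et, hy1]; group
      subst this
      rfl
    · rintro ⟨x, hxx, hxN⟩
      obtain ⟨y, hy, hN', hsq', hz'⟩ := h.exists_comm hf hxN hxx
      exact ⟨(⟨y, hy⟩, ⟨y⁻¹ * x * y, hmemH.2 hz', hN'⟩), Subtype.ext (by
        show y * (y⁻¹ * x * y) * y⁻¹ = x
        group)⟩
  have hNN := h.card_NN hC
  have hG : Nat.card G = 2 * q + q * q * Nat.card T := by
    have e1 := Nat.card_congr (Equiv.sumCompl (fun x : G => x ∈ NN M))
    rw [Nat.card_sum] at e1
    have e2 : Nat.card (IO × M) = Nat.card {x : G // ¬ x ∈ NN M} := by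
      refine Nat.card_congr (Equiv.ofBijective (fun p : IO × M => ⟨p.1.1 * p.2, fun e => p.1.2.2 ?_⟩)
        ⟨?_, ?_⟩)
      · simpa using (NN M).mul_mem e ((NN M).inv_mem (Ctx.M_le p.2.2))
      · rintro ⟨⟨x, hx, hxN⟩, m⟩ ⟨⟨x', hx', hx'N⟩, m'⟩ e
        have e : x * (m : G) = x' * m' := congrArg Subtype.val e
        have hm : x⁻¹ * x' = (m : G) * (m' : G)⁻¹ := by
          calc x⁻¹ * x' = x⁻¹ * (x' * m') * (m' : G)⁻¹ := by group
            _ = _ := by rw [← e]; group
        have hxx' := h.coset_unique hxN hx (m := x⁻¹ * x')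
          (hm ▸ M.mul_mem m.2 (M.inv_mem m'.2)) (by rw [mul_inv_cancel_left]; exact hx')
        have : x = x' := inv_mul_eq_one.1 hxx'
        subst this
        simp only [Prod.mk.injEq, true_and]
        exact Subtype.ext (mul_left_cancel e)
      · rintro ⟨g, hg⟩
        obtain ⟨m, hm, e⟩ := hf g hg
        exact ⟨(⟨g * m, e, fun e' => hg (by
          simpa using (NN M).mul_mem e' ((NN M).inv_mem (Ctx.M_le hm)))⟩, ⟨m, hm⟩⁻¹), Subtype.ext (by
          simp)⟩
    rw [Nat.card_prod, hIO, ← hq] at e2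
    have e3 : Nat.card {x : G // x ∈ NN M} = 2 * q := hNN
    rw [← e1, e3, ← e2]; ring
  have hqodd := h.odd_card
  have hq3 : 3 ≤ q := by
    have h1 : 1 < q := (Subgroup.one_lt_card_iff_ne_bot M).2 h.ne
    obtain ⟨r, hr⟩ := hqodd
    omega
  have hH2 : IsPGroup 2 H := fun x => ⟨1, Subtype.ext (by simpa [pow_two] using hHsq x x.2)⟩
  obtain ⟨k, hk⟩ := IsPGroup.iff_card.1 hH2
  have hTpos : 0 < Nat.card T := by
    obtain ⟨m, hm, e⟩ := hf g0 hg0
    obtain ⟨y, hy, hN', -, hz'⟩ := h.exists_comm hf (t := g0 * m) (fun e' => hg0 (by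
      simpa using (NN M).mul_mem e' ((NN M).inv_mem (Ctx.M_le hm)))) e
    haveI : Nonempty T := ⟨⟨_, hmemH.2 hz', hN'⟩⟩
    exact Nat.card_pos
  obtain ⟨d, rfl⟩ : ∃ d, k = d + 1 := ⟨k - 1, by rcases k with _ | k <;> simp_all⟩
  have hd1 : 1 ≤ d := by rcases d with _ | d <;> simp_all
  set b := 2 ^ d with hb
  have hb2 : 2 ≤ b := hb ▸ Nat.le_self_pow (by omega) 2
  rw [pow_succ, ← hb] at hk
  obtain ⟨a, hba⟩ : ∃ a, b = a + 1 := ⟨b - 1, by omega⟩
  have hTa : Nat.card T = 2 * a := by omega
  rw [hTa] at hIO hG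
  -- the class of `z`
  set c := H.index with hc
  have hcmul : c * (a + 1) = q * (1 + a * q) := by
    have := H.card_mul_index
    rw [hk, hG, hba] at this
    rw [← hc] at this
    nlinarith
  set Inv := {x : G // x * x = 1 ∧ x ≠ 1}
  have hInv : Nat.card Inv = q * (2 * a + 1) := by
    have e1 := Nat.card_congr (Equiv.sumCompl (fun x : Inv => (x : G) ∈ NN M))
    rw [Nat.card_sum] at e1
    have e2 : Nat.card {x : Inv // (x : G) ∈ NN M} = q := by
      rw [hq]
      symm
      refine Nat.card_congr (Equiv.ofBijective (fun m : M =>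
        (⟨⟨(m : G) * z, h.mz_inv m.2, h.mz_ne m.2⟩, h.mz_mem m.2⟩ :
          {x : Inv // (x : G) ∈ NN M})) ⟨?_, ?_⟩)
      · intro m m' e
        exact Subtype.ext (mul_right_cancel (congrArg (fun x : {x : Inv // (x : G) ∈ NN M} => ((x : Inv) : G)) e))
      · rintro ⟨⟨x, hx, hx1⟩, hxN⟩
        obtain ⟨m, hm, rfl⟩ := h.inv_N hxN hx hx1
        exact ⟨⟨m, hm⟩, rfl⟩
    have e3 : Nat.card {x : Inv // ¬ (x : G) ∈ NN M} = Nat.card IO :=
      Nat.card_congr ⟨fun x => ⟨x.1.1, x.1.2.1, x.2⟩,
        fun x => ⟨⟨x.1, x.2.1, fun e => x.2.2 (by rw [e]; exact (NN M).one_mem)⟩, x.2.2⟩, fun _ => rfl, fun _ => rfl⟩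
    rw [← e1, e2, e3, hIO]; ring
  have hconjinv : ∀ g : G, g * z * g⁻¹ * (g * z * g⁻¹) = 1 ∧ g * z * g⁻¹ ≠ 1 := fun g =>
    ⟨by
      calc g * z * g⁻¹ * (g * z * g⁻¹) = g * (z * z) * g⁻¹ := by group
        _ = 1 := by rw [h.zz]; group,
      fun e => h.z_ne (conj_eq_one_iff.1 e)⟩
  let cls : G ⧸ H → Inv := Quotient.lift (fun g : G => (⟨g * z * g⁻¹, hconjinv g⟩ : Inv)) (by
    intro g g' e
    have hgg : g⁻¹ * g' ∈ H := QuotientGroup.leftRel_apply.1 e
    apply Subtype.ext
    show g * z * g⁻¹ = g' * z * g'⁻¹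
    calc g * z * g⁻¹ = g * ((g⁻¹ * g') * z * (g⁻¹ * g')⁻¹) * g⁻¹ := by
          rw [(hmemH.1 hgg).mul_inv_cancel]
      _ = g' * z * g'⁻¹ := by group)
  have hcls : ∀ g : G, (cls (g : G ⧸ H) : G) = g * z * g⁻¹ := fun g => rfl
  have hclsinj : Function.Injective cls := by
    intro p p'
    induction p using QuotientGroup.induction_on with
    | _ g =>
    induction p' using QuotientGroup.induction_on with
    | _ g' =>
    intro e
    have e : g * z * g⁻¹ = g' * z * g'⁻¹ := congrArg Subtype.val e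
    rw [QuotientGroup.eq, hmemH]
    apply commute_of_conj
    calc g⁻¹ * g' * z * (g⁻¹ * g')⁻¹ = g⁻¹ * (g' * z * g'⁻¹) * g := by group
      _ = z := by rw [← e]; group
  have hcle : c ≤ q * (2 * a + 1) := by
    rw [← hInv, hc, Subgroup.index]
    exact Nat.card_le_card_of_injective cls hclsinj
  -- arithmetic
  obtain ⟨j, hj⟩ : a + 1 ∣ q - 1 := by
    have hdvd : a + 1 ∣ q * (1 + a * q) := ⟨c, by rw [← hcmul]; ring⟩
    have hcop : Nat.Coprime (a + 1) q := by
      rw [← hba, hb]
      exact (Nat.coprime_two_left.2 hqodd).pow_left d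
    have h1 : a + 1 ∣ 1 + a * q := hcop.dvd_of_dvd_mul_left hdvd
    have h2 : 1 + a * q + (q - 1) = q * (a + 1) := by
      have : q - 1 + 1 = q := by omega
      nlinarith
    exact (Nat.dvd_add_right h1).1 (h2 ▸ dvd_mul_left _ _)
  have hq23 : q ≤ 2 * a + 3 := by
    have h1 : q * (1 + a * q) ≤ q * (2 * a + 1) * (a + 1) := hcmul ▸ Nat.mul_le_mul_right _ hcle
    rw [mul_assoc] at h1
    have h2 : 1 + a * q ≤ (2 * a + 1) * (a + 1) := Nat.le_of_mul_le_mul_left h1 (by omega)
    have ha : 0 < a := by omega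
    exact Nat.le_of_mul_le_mul_left (by nlinarith : a * q ≤ a * (2 * a + 3)) ha
  have hj12 : j = 1 ∨ j = 2 := by
    rcases j with _ | _ | _ | j
    · omega
    · exact Or.inl rfl
    · exact Or.inr rfl
    · exfalso
      have : (a + 1) * 3 ≤ (a + 1) * (j + 1 + 1 + 1) := Nat.mul_le_mul_left _ (by omega)
      omega
  rcases hj12 with hj1 | hj2
  · -- a normal elementary abelian subgroup with dihedral complement
    refine Or.inr ?_
    rw [hj1, mul_one] at hj
    have hqa : q = a + 2 := by omega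
    have hceq : c = q * (a + 1) := by
      apply Nat.eq_of_mul_eq_mul_right (show 0 < a + 1 by omega)
      rw [hcmul, hqa]; ring
    have hGeq : Nat.card G = 2 * q * ((a + 1) * (a + 1)) := by rw [hG, hqa]; ring
    set E := Cfsg.pCore 2 G with hE
    haveI hEn : E.Normal := by rw [hE]; exact Subgroup.normal_of_characteristic _
    have hE2 : IsPGroup 2 E := CfsgLib.Cores.isPGroup_pCore 2 G
    have hoth : ∀ u : Inv, u ∉ Set.range cls → (u : G) ∈ E := by
      rintro ⟨u, huu, hu1⟩ hu
      by_contra huE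
      have hu2 : orderOf u = 2 := orderOf_eq_prime (by rw [pow_two, huu]) hu1
      obtain ⟨y, hy, hodd, hne⟩ := CfsgLib.InvChar.exists_conj_odd_orderOf_mul u hu2 huE
      obtain ⟨gy, hgy⟩ := isConj_iff.1 hy
      have hui : u⁻¹ = u := inv_eq_of_mul_eq_one_right huu
      have hyi : y⁻¹ = y := by
        rw [← hgy, mul_inv_rev, mul_inv_rev, inv_inv, hui, mul_assoc]
      set w := u * y with hw
      obtain ⟨r, hr, hrd⟩ := Nat.exists_prime_and_dvd (show orderOf w ≠ 1 from fun e => hne (orderOf_eq_one_iff.1 e))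
      haveI : Fact r.Prime := ⟨hr⟩
      set x := w ^ (orderOf w / r) with hx
      have hxo : orderOf x = r := orderOf_pow_orderOf_div (orderOf_pos w).ne' hrd
      have hinvw : u * w * u⁻¹ = w⁻¹ := by
        rw [hw, mul_inv_rev, hyi, hui, ← mul_assoc u u y, huu, one_mul]
      have hinvx : u * x * u⁻¹ = x⁻¹ := by rw [hx, ← conj_pow, hinvw, inv_pow]
      have hrodd : Odd r := hodd.of_dvd_nat hrd
      have hr2 : r ≠ 2 := fun e => by rw [e] at hrodd; exact (by decide : ¬ Odd 2) hrodd
      -- `x` is conjugate into `M`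
      obtain ⟨R⟩ : Nonempty (Sylow r M) := inferInstance
      set R' := (R : Subgroup M).map M.subtype with hR'
      have hR'c : Nat.card R' = r ^ (Nat.card G).factorization r := by
        have hR1 : Nat.card R' = Nat.card R := Subgroup.card_map_of_injective M.subtype_injective
        rw [hR1, R.card_eq_multiplicity, ← hq, hGeq,
          Nat.factorization_mul (by omega) (by positivity), Nat.factorization_mul (by omega) (by omega)]
        have z1 : (2 : ℕ).factorization r = 0 :=
          Nat.factorization_eq_zero_of_not_dvd fun e => hr2 ((Nat.prime_dvd_prime_iff_eq hr Nat.prime_two).1 e)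
        have z2 : (a + 1).factorization r = 0 := by
          refine Nat.factorization_eq_zero_of_not_dvd fun e => hr2 ?_
          rw [← hba, hb] at e
          exact (Nat.prime_dvd_prime_iff_eq hr Nat.prime_two).1 (hr.dvd_of_dvd_pow e)
        simp [Nat.factorization_mul, Finsupp.add_apply, z1, z2]
      set RS := Sylow.ofCard R' hR'c with hRS
      obtain ⟨Q, hQ⟩ := (IsPGroup.of_card (p := r) (n := 1)
        (show Nat.card (Subgroup.zpowers x) = r ^ 1 by rw [Nat.card_zpowers, hxo, pow_one])).exists_le_sylow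
      obtain ⟨g, hg⟩ := MulAction.exists_smul_eq G RS Q
      have hxQ : x ∈ (Q : Subgroup G) := hQ (Subgroup.mem_zpowers x)
      rw [← hg, Sylow.coe_subgroup_smul, Subgroup.mem_pointwise_smul_iff_inv_smul_mem] at hxQ
      have hxM : g⁻¹ * x * g ∈ M := by
        have : g⁻¹ * x * g ∈ R' := by simpa [MulAut.smul_def, mul_assoc, hRS] using hxQ
        obtain ⟨m, -, e⟩ := this
        exact e ▸ m.2
      have hx1 : x ≠ 1 := fun e => by rw [e, orderOf_one] at hxo; exact hr.ne_one hxo.symm
      have hu' : g⁻¹ * u * g ∈ NN M := by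
        refine h.ti' (x := g⁻¹ * x * g) (fun e => hx1 ?_) hxM ?_
        · calc x = g * (g⁻¹ * x * g) * g⁻¹ := by group
            _ = 1 := by rw [e]; group
        · have e : (g⁻¹ * u * g)⁻¹ * (g⁻¹ * x * g) * (g⁻¹ * u * g) = (g⁻¹ * x * g)⁻¹ := by
            calc (g⁻¹ * u * g)⁻¹ * (g⁻¹ * x * g) * (g⁻¹ * u * g)
                = g⁻¹ * (u⁻¹ * x * u) * g := by group
              _ = g⁻¹ * (u * x * u⁻¹) * g := by rw [hui]
              _ = (g⁻¹ * x * g)⁻¹ := by rw [hinvx]; group
          rw [e]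
          exact M.inv_mem hxM
      have hu'2 : g⁻¹ * u * g * (g⁻¹ * u * g) = 1 := by
        calc g⁻¹ * u * g * (g⁻¹ * u * g) = g⁻¹ * (u * u) * g := by group
          _ = 1 := by rw [huu]; group
      have hu'1 : g⁻¹ * u * g ≠ 1 := fun e => hu1 (by
        calc u = g * (g⁻¹ * u * g) * g⁻¹ := by group
          _ = 1 := by rw [e]; group)
      obtain ⟨m, hm, em⟩ := h.inv_N hu' hu'2 hu'1
      obtain ⟨y', -, ey'⟩ := h.mz_conj hm
      refine hu ⟨((g * y' : G) : G ⧸ H), Subtype.ext ?_⟩
      rw [hcls]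
      show g * y' * z * (g * y')⁻¹ = u
      calc g * y' * z * (g * y')⁻¹ = g * (y' * z * y'⁻¹) * g⁻¹ := by group
        _ = u := by rw [← ey', ← em]; group
    have hEM : ∀ x ∈ E, x ∈ M → x = 1 := by
      intro x hx hxM
      obtain ⟨i, hi⟩ := hE2 ⟨x, hx⟩
      have hi : x ^ 2 ^ i = 1 := congrArg Subtype.val hi
      obtain ⟨i', -, hi'⟩ := (Nat.dvd_prime_pow Nat.prime_two).1 (orderOf_dvd_of_pow_eq_one hi)
      rcases i' with _ | i'
      · exact orderOf_eq_one_iff.1 hi'
      · exfalso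
        have := Subgroup.orderOf_dvd_natCard _ hxM
        rw [hi', ← hq] at this
        exact (Nat.not_even_iff_odd.2 hqodd) (even_iff_two_dvd.2 ((dvd_pow_self 2 (Nat.succ_ne_zero _)).trans this))
    have hcentE : ∀ x ∈ E, ∀ m ∈ M, m ≠ 1 → Commute x m → x = 1 := by
      intro x hx m hm hm1 hcm
      obtain ⟨i, hi⟩ := hE2 ⟨x, hx⟩
      have hi : x ^ 2 ^ i = 1 := congrArg Subtype.val hi
      obtain ⟨i', -, hi'⟩ := (Nat.dvd_prime_pow Nat.prime_two).1 (orderOf_dvd_of_pow_eq_one hi)
      rcases i' with _ | i'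
      · exact orderOf_eq_one_iff.1 hi'
      · exfalso
        have := Subgroup.orderOf_dvd_natCard _
          (show x ∈ Subgroup.centralizer ({m} : Set G) from Subgroup.mem_centralizer_singleton_iff.2 hcm.eq)
        rw [hi'] at this
        exact (Nat.not_even_iff_odd.2 (h.odd m hm hm1))
          (even_iff_two_dvd.2 ((dvd_pow_self 2 (Nat.succ_ne_zero _)).trans this))
    obtain ⟨⟨m1, hm1⟩, hm11⟩ := Subgroup.ne_bot_iff_exists_ne_one.1 h.ne
    replace hm11 : m1 ≠ 1 := fun e => hm11 (Subtype.ext e)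
    have hEN : E ⊓ NN M = ⊥ := by
      rw [Subgroup.eq_bot_iff_forall]
      intro x hx
      obtain ⟨hxE, hxN⟩ := Subgroup.mem_inf.1 hx
      refine hcentE x hxE m1 hm1 hm11 (commute_of_conj (mul_inv_eq_one.1 (hEM (x * m1 * x⁻¹ * m1⁻¹) ?_ ?_)))
      · have := E.mul_mem hxE (hEn.conj_mem _ (E.inv_mem hxE) m1)
        simpa [mul_assoc] using this
      · exact M.mul_mem (Ctx.conjM hxN hm1) (M.inv_mem hm1)
    have hinjEN : Function.Injective (fun p : E × NN M => (p.1 : G) * p.2) := by
      rintro ⟨e1, n1⟩ ⟨e2, n2⟩ e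
      have e : (e1 : G) * n1 = e2 * n2 := e
      have hmem : (e2 : G)⁻¹ * e1 ∈ E ⊓ NN M := ⟨E.mul_mem (E.inv_mem e2.2) e1.2, by
        have : (e2 : G)⁻¹ * e1 = n2 * (n1 : G)⁻¹ := by
          calc (e2 : G)⁻¹ * e1 = (e2 : G)⁻¹ * (e1 * n1) * (n1 : G)⁻¹ := by group
            _ = _ := by rw [e]; group
        rw [this]
        exact (NN M).mul_mem n2.2 ((NN M).inv_mem n1.2)⟩
      rw [hEN, Subgroup.mem_bot, inv_mul_eq_one] at hmem
      have he : e1 = e2 := Subtype.ext hmem.symm
      subst he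
      rw [Subtype.ext (mul_left_cancel e)]
    have hEle : Nat.card E ≤ (a + 1) * (a + 1) := by
      have := Nat.card_le_card_of_injective _ hinjEN
      rw [Nat.card_prod, hNN, hGeq, mul_comm (Nat.card E)] at this
      exact Nat.le_of_mul_le_mul_left this (by omega)
    set Oth := Option {u : Inv // u ∉ Set.range cls}
    have hOth : Nat.card Oth = (a + 1) * (a + 1) := by
      have e1 := Nat.card_congr (Equiv.sumCompl (fun u : Inv => u ∈ Set.range cls))
      rw [Nat.card_sum, hInv] at e1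
      have e2 : Nat.card {u : Inv // u ∈ Set.range cls} = c :=
        (Nat.card_congr (Equiv.ofInjective cls hclsinj)).symm
      rw [e2, hceq] at e1
      rw [Finite.card_option]
      have e3 : Nat.card {u : Inv // u ∉ Set.range cls} = q * a :=
        Nat.add_left_cancel (e1.trans (by ring : q * (2 * a + 1) = q * (a + 1) + q * a))
      rw [e3, hqa]; ring
    let f : Oth → E := fun o => o.elim 1 fun u => ⟨u.1.1, hoth u.1 u.2⟩
    have hfinj : Function.Injective f := by
      rintro (_ | u) (_ | v) e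
      · rfl
      · exact absurd (congrArg Subtype.val e).symm v.1.2.2
      · exact absurd (congrArg Subtype.val e) u.1.2.2
      · exact congrArg some (Subtype.ext (Subtype.ext (congrArg (fun x : E => (x : G)) e)))
    have hEcard : Nat.card E = (a + 1) * (a + 1) :=
      le_antisymm hEle (hOth ▸ Nat.card_le_card_of_injective f hfinj)
    have hfbij : Function.Bijective f := by
      haveI := Fintype.ofFinite Oth
      haveI := Fintype.ofFinite E
      rw [Fintype.bijective_iff_injective_and_card]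
      exact ⟨hfinj, by rw [← Nat.card_eq_fintype_card, ← Nat.card_eq_fintype_card, hOth, hEcard]⟩
    have hEsq : ∀ x ∈ E, x * x = 1 := by
      intro x hx
      obtain ⟨o, ho⟩ := hfbij.2 ⟨x, hx⟩
      have ho : ((f o : E) : G) = x := congrArg Subtype.val ho
      rcases o with _ | u
      · rw [← ho]; exact mul_one 1
      · rw [← ho]; exact u.1.2.1
    have hEab : Cfsg.IsElementaryAbelian 2 E := by
      refine ⟨⟨⟨fun x y => Subtype.ext ?_⟩⟩, fun x hx => by rw [pow_two]; exact hEsq x hx⟩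
      have e := inv_eq_of_mul_eq_one_right (hEsq _ (E.mul_mem x.2 y.2))
      rwa [mul_inv_rev, inv_eq_of_mul_eq_one_right (hEsq _ x.2), inv_eq_of_mul_eq_one_right (hEsq _ y.2),
        eq_comm] at e
    have hsup : E ⊔ NN M = ⊤ := by
      have hb : Function.Bijective (fun p : E × NN M => (p.1 : G) * p.2) := by
        haveI := Fintype.ofFinite (E × NN M)
        haveI := Fintype.ofFinite G
        rw [Fintype.bijective_iff_injective_and_card]
        exact ⟨hinjEN, by
          rw [← Nat.card_eq_fintype_card, ← Nat.card_eq_fintype_card, Nat.card_prod, hEcard, hNN, hGeq,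
            ← hq]
          ring⟩
      refine eq_top_iff.2 fun g _ => ?_
      obtain ⟨⟨e, n⟩, rfl⟩ := hb.2 g
      exact Subgroup.mul_mem_sup e.2 n.2
    haveI : IsMulCommutative M := ⟨⟨fun x y => Subtype.ext (h.comm x.2 y.2)⟩⟩
    have hEne : E ≠ ⊥ := fun e => by
      rw [e, Subgroup.card_bot] at hEcard
      nlinarith
    have hcyc : IsCyclic M := CfsgLib.Cores.isCyclic_of_fpf (A := M) (V := E) hEne
      (fun x _ => by rw [Subgroup.normalizer_eq_top_iff.2 hEn]; trivial) (fun m hm hm1' => by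
        rw [Subgroup.eq_bot_iff_forall]
        intro x hx
        exact hcentE x hx.1 m hm hm1' (Subgroup.mem_centralizer_singleton_iff.1 hx.2))
    refine ⟨d, E, hd1, hEn, hEab, ?_, hEN, hsup, ?_⟩
    · rw [hEcard, ← hba, hb, ← pow_add]; congr 1; omega
    · rw [show 2 ^ d + 1 = Nat.card M by omega]
      haveI : NeZero (Nat.card M) := ⟨by omega⟩
      set ζ := zmodCyclicMulEquiv hcyc with hζ
      let X : ZMod (Nat.card M) → G := fun i => ((ζ (Multiplicative.ofAdd i) : M) : G)
      have hXadd : ∀ i j, X (i + j) = X i * X j := fun i j => by simp [X, ofAdd_add]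
      have hXM : ∀ i, X i ∈ M := fun i => (ζ _).2
      have hX0 : X 0 = 1 := by simp [X]
      have hXneg : ∀ i, X (-i) = (X i)⁻¹ := fun i =>
        eq_inv_of_mul_eq_one_left (by rw [← hXadd, neg_add_cancel, hX0])
      have hzX : ∀ i, X i * z = z * X (-i) := fun i => by
        rw [hXneg, ← h.zinv (hXM i), ← mul_assoc, ← mul_assoc, h.zz, one_mul]
      let φ : DihedralGroup (Nat.card M) → NN M := fun
        | DihedralGroup.r i => ⟨X i, Ctx.M_le (hXM i)⟩
        | DihedralGroup.sr i => ⟨z * X i, (NN M).mul_mem h.zN (Ctx.M_le (hXM i))⟩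
      have hφ : ∀ p p', φ (p * p') = φ p * φ p' := by
        rintro (i | i) (j | j) <;> apply Subtype.ext
        · exact hXadd i j
        · show z * X (j - i) = X i * (z * X j)
          rw [← mul_assoc, hzX, mul_assoc, ← hXadd, sub_eq_neg_add]
        · show z * X (i + j) = z * X i * X j
          rw [mul_assoc, ← hXadd]
        · show X (j - i) = z * X i * (z * X j)
          rw [mul_assoc z, ← mul_assoc (X i), hzX, ← mul_assoc, ← mul_assoc, h.zz, one_mul, ← hXadd,
            sub_eq_neg_add]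
      have hinj : Function.Injective φ := by
        have hXinj : ∀ i j, X i = X j → i = j := fun i j e =>
          Multiplicative.ofAdd.injective (ζ.injective (Subtype.ext e))
        have hne : ∀ i j, X i ≠ z * X j := fun i j e => by
          refine h.z_ne (h.MC_bot ?_ h.zC)
          have : z = X i * (X j)⁻¹ := by rw [e, mul_inv_cancel_right]
          rw [this]
          exact M.mul_mem (hXM i) (M.inv_mem (hXM j))
        rintro (i | i) (j | j) e <;> have e := congrArg Subtype.val e
        · rw [hXinj i j e]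
        · exact absurd e (hne i j)
        · exact absurd e.symm (hne j i)
        · rw [hXinj i j (mul_left_cancel e)]
      have hbij : Function.Bijective φ := by
        haveI := Fintype.ofFinite (NN M)
        rw [Fintype.bijective_iff_injective_and_card]
        exact ⟨hinj, by rw [DihedralGroup.card, ← Nat.card_eq_fintype_card, hNN]⟩
      exact ⟨(MulEquiv.ofBijective (MonoidHom.mk' φ hφ) hbij).symm⟩
  · -- all involutions conjugate
    refine Or.inl ?_
    rw [hj2] at hj
    set Q := 2 * a + 2 with hQ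
    have hqQ : q = Q + 1 := by omega
    have hceq : c = q * (2 * a + 1) := by
      apply Nat.eq_of_mul_eq_mul_right (show 0 < a + 1 by omega)
      rw [hcmul, show q = 2 * a + 3 by omega]; ring
    have hHQ : Nat.card H = Q := by omega
    have hGeq : Nat.card G = Q * (Q + 1) * (2 * a + 1) := by
      rw [← H.card_mul_index, hHQ, ← hc, hceq, hqQ]; ring
    have hclsbij : Function.Bijective cls := by
      haveI := Fintype.ofFinite (G ⧸ H)
      haveI := Fintype.ofFinite Inv
      rw [Fintype.bijective_iff_injective_and_card]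
      exact ⟨hclsinj, by
        rw [← Nat.card_eq_fintype_card, ← Nat.card_eq_fintype_card, hInv, ← hceq, hc]; rfl⟩
    have hall : ∀ x : G, x * x = 1 → x ≠ 1 → ∃ g : G, g * z * g⁻¹ = x := by
      intro x hx hx1
      obtain ⟨p, hp⟩ := hclsbij.2 ⟨x, hx, hx1⟩
      induction p using QuotientGroup.induction_on with
      | _ g => exact ⟨g, congrArg Subtype.val hp⟩
    -- centralisers of involutions of `H`
    have hcu : ∀ u ∈ H, u ≠ 1 → ∀ x : G, Commute x u → x ∈ H := by
      intro u hu hu1 x hx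
      obtain ⟨g, rfl⟩ := hall u (hHsq u hu) hu1
      set H' := H.map (MulAut.conj g).toMonoidHom with hH'
      have hmem : ∀ y : G, Commute y (g * z * g⁻¹) → y ∈ H' := fun y hy =>
        ⟨g⁻¹ * y * g, hmemH.2 (by simpa [mul_assoc] using hy.map (MulAut.conj g⁻¹).toMonoidHom),
          by simp [mul_assoc]⟩
      have hle : H ≤ H' := fun y hy => hmem y (hHcomm y hy _ hu)
      have heq : H = H' := Subgroup.eq_of_le_of_card_ge hle
        (Subgroup.card_map_of_injective (MulAut.conj g).injective).le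
      rw [heq]; exact hmem x hx
    set NH := Subgroup.normalizer (H : Set G) with hNH
    have hHN : H ≤ NH := Subgroup.le_normalizer
    have hidx : (H.subgroupOf NH).index = Q - 1 := by
      have e1 : Nat.card {u : H // u ≠ 1} = Q - 1 := by
        have e := Nat.card_congr (Equiv.optionSubtypeNe (1 : H))
        rw [Finite.card_option, hHQ] at e
        omega
      rw [← e1, Subgroup.index]
      let ψ : NH ⧸ H.subgroupOf NH → {u : H // u ≠ 1} := Quotient.lift (fun g : NH =>
        (⟨⟨(g : G) * z * (g : G)⁻¹, Ctx.conjM g.2 (hmemH.2 (Commute.refl z))⟩,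
          fun e => h.z_ne (conj_eq_one_iff.1 (congrArg Subtype.val e))⟩ : {u : H // u ≠ 1})) (by
        intro g g' e
        have hgg : (g : G)⁻¹ * g' ∈ H :=
          (QuotientGroup.leftRel_apply (s := H.subgroupOf NH) (x := g) (y := g')).1 e
        apply Subtype.ext
        apply Subtype.ext
        show (g : G) * z * (g : G)⁻¹ = g' * z * (g' : G)⁻¹
        calc (g : G) * z * (g : G)⁻¹
            = g * (((g : G)⁻¹ * g') * z * ((g : G)⁻¹ * g')⁻¹) * (g : G)⁻¹ := by
              rw [(hmemH.1 hgg).mul_inv_cancel]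
          _ = g' * z * (g' : G)⁻¹ := by group)
      refine Nat.card_congr (Equiv.ofBijective ψ ⟨?_, ?_⟩)
      · intro p p'
        induction p using QuotientGroup.induction_on with
        | _ g =>
        induction p' using QuotientGroup.induction_on with
        | _ g' =>
        intro e
        have e : (g : G) * z * (g : G)⁻¹ = g' * z * (g' : G)⁻¹ :=
          congrArg (fun v : {u : H // u ≠ 1} => ((v : H) : G)) e
        rw [QuotientGroup.eq]
        show (g : G)⁻¹ * g' ∈ H
        rw [hmemH]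
        apply commute_of_conj
        calc (g : G)⁻¹ * g' * z * ((g : G)⁻¹ * g')⁻¹ = (g : G)⁻¹ * (g' * z * (g' : G)⁻¹) * g := by group
          _ = z := by rw [← e]; group
      · rintro ⟨⟨u, hu⟩, hu1⟩
        have hu1 : u ≠ 1 := fun e => hu1 (Subtype.ext e)
        obtain ⟨g, rfl⟩ := hall u (hHsq u hu) hu1
        have hgN : g ∈ NH := by
          haveI : Finite ↥(H : Set G) := Finite.of_injective Subtype.val Subtype.val_injective
          apply Subgroup.mem_normalizer_fintype
          intro x hx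
          exact hcu _ hu hu1 _ ((hmemH.1 hx).map (MulAut.conj g).toMonoidHom)
        exact ⟨((⟨g, hgN⟩ : NH) : NH ⧸ H.subgroupOf NH), rfl⟩
    have hNHcard : Nat.card NH = Q * (Q - 1) := by
      rw [← (H.subgroupOf NH).card_mul_index, hidx,
        Nat.card_congr (Subgroup.subgroupOfEquivOfLe hHN).toEquiv, hHQ]
    haveI := Fintype.ofFinite (G ⧸ NH)
    have hΩ : Fintype.card (G ⧸ NH) = Q + 1 := by
      have := NH.card_mul_index
      rw [hNHcard, hGeq, Subgroup.index, Nat.card_eq_fintype_card] at this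
      rw [show Q - 1 = 2 * a + 1 by omega] at this
      apply Nat.eq_of_mul_eq_mul_left (show 0 < Q * (2 * a + 1) by positivity)
      rw [this]; ring
    have hinvH : ∀ x ∈ NH, x * x = 1 → x ∈ H := by
      intro x hx hxx
      have hq1 : ((⟨x, hx⟩ : NH) : NH ⧸ H.subgroupOf NH) = 1 := by
        rw [← orderOf_eq_one_iff]
        have h1 : orderOf ((⟨x, hx⟩ : NH) : NH ⧸ H.subgroupOf NH) ∣ 2 := by
          apply orderOf_dvd_of_pow_eq_one
          rw [← QuotientGroup.mk_pow, pow_two, show (⟨x, hx⟩ : NH) * ⟨x, hx⟩ = 1 from Subtype.ext hxx,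
            QuotientGroup.mk_one]
        have h2 : orderOf ((⟨x, hx⟩ : NH) : NH ⧸ H.subgroupOf NH) ∣ Q - 1 := by
          rw [← hidx, Subgroup.index]; exact orderOf_dvd_natCard _
        have h3 := Nat.dvd_gcd h1 h2
        rw [show Nat.gcd 2 (Q - 1) = 1 from Nat.coprime_two_left.2 ⟨a, by omega⟩, Nat.dvd_one] at h3
        exact h3
      exact (QuotientGroup.eq_one_iff (⟨x, hx⟩ : NH)).1 hq1
    set inf : G ⧸ NH := ((1 : G) : G ⧸ NH) with hinf
    have hmk : ∀ x y : G, x • ((y : G) : G ⧸ NH) = ((x * y : G) : G ⧸ NH) := fun x y => rfl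
    have hfixinf : ∀ g : G, g • inf = inf ↔ g ∈ NH := by
      intro g
      rw [hinf, hmk, QuotientGroup.eq, mul_one, mul_one, inv_mem_iff]
    have hsemiH : ∀ x ∈ H, ∀ p : G ⧸ NH, p ≠ inf → x • p = p → x = 1 := by
      intro x hx p hp hxp
      induction p using QuotientGroup.induction_on with
      | _ g =>
      by_contra hx1
      rw [hmk, eq_comm, QuotientGroup.eq, ← mul_assoc] at hxp
      have hu : g⁻¹ * x * g ∈ H := hinvH _ hxp (by
        calc g⁻¹ * x * g * (g⁻¹ * x * g) = g⁻¹ * (x * x) * g := by group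
          _ = 1 := by rw [hHsq x hx]; group)
      apply hp
      rw [hinf, QuotientGroup.eq, mul_one, inv_mem_iff]
      haveI : Finite ↥(H : Set G) := Finite.of_injective Subtype.val Subtype.val_injective
      apply Subgroup.mem_normalizer_fintype
      intro y hy
      refine hcu x hx hx1 _ ?_
      have := (hHcomm y hy _ hu).map (MulAut.conj g).toMonoidHom
      simpa [mul_assoc] using this
    obtain ⟨o, ho⟩ : ∃ o : G ⧸ NH, o ≠ inf :=
      Fintype.exists_ne_of_one_lt_card (by omega) inf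
    have hHinf : ∀ x ∈ H, x • inf = inf := fun x hx => (hfixinf x).2 (hHN hx)
    have htrans : ∀ p : G ⧸ NH, p ≠ inf → ∃ x ∈ H, x • o = p := by
      have hb : Function.Bijective (fun x : Option H => x.elim inf fun m => (m : G) • o) := by
        haveI := Fintype.ofFinite H
        rw [Fintype.bijective_iff_injective_and_card]
        refine ⟨?_, by rw [Fintype.card_option, ← Nat.card_eq_fintype_card, hHQ, hΩ]⟩
        have hne : ∀ m : H, (m : G) • o ≠ inf := fun m e =>
          ho (MulAction.injective (m : G) (e.trans (hHinf _ m.2).symm))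
        rintro (_ | x) (_ | y) hxy
        · rfl
        · exact absurd hxy.symm (hne y)
        · exact absurd hxy (hne x)
        · congr 1
          refine Subtype.ext (inv_mul_eq_one.1 (hsemiH _ (H.mul_mem (H.inv_mem x.2) y.2) o ho ?_))
          rw [mul_smul, ← (show (x : G) • o = (y : G) • o from hxy), inv_smul_smul]
      intro p hp
      obtain ⟨x, hx⟩ := hb.2 p
      rcases x with _ | x
      · exact absurd hx.symm hp
      · exact ⟨x, x.2, hx⟩
    have hfix3 : ∀ g : G, g • inf = inf → g • o = o → ∀ x ∈ H, x ≠ 1 → g • (x • o) = x • o → g = 1 := by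
      intro g h1 h2 x hx hx1 hgx
      have hgN := (hfixinf g).1 h1
      have e : x⁻¹ * (g * x * g⁻¹) = 1 := hsemiH _ (H.mul_mem (H.inv_mem hx) (Ctx.conjM hgN hx)) o ho (by
        rw [mul_smul, mul_smul, mul_smul, inv_smul_eq_iff.2 h2.symm, hgx, inv_smul_smul])
      exact hsemiH g (hcu x hx hx1 g (commute_of_conj (inv_mul_eq_one.1 e).symm)) o ho h2
    have hmove : ∀ p p' : G ⧸ NH, p ≠ p' → ∃ g : G, g • p = inf ∧ g • p' = o := by
      intro p p' hpp
      induction p using QuotientGroup.induction_on with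
      | _ ga =>
      have h1 : ga⁻¹ • ((ga : G) : G ⧸ NH) = inf := by rw [hmk, inv_mul_cancel]
      obtain ⟨x, hx, hxb⟩ := htrans (ga⁻¹ • p')
        (fun e => hpp (MulAction.injective ga⁻¹ (h1.trans e.symm)))
      exact ⟨x⁻¹ * ga⁻¹, by rw [mul_smul, h1, hHinf _ (H.inv_mem hx)],
        by rw [mul_smul, ← hxb, inv_smul_smul]⟩
    have h3 : ∀ g : G, ∀ p p' p'' : G ⧸ NH, p ≠ p' → p' ≠ p'' → p ≠ p'' → g • p = p → g • p' = p' →
        g • p'' = p'' → g = 1 := by
      intro g p p' p'' h12 h23 h13 e1 e2 e3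
      obtain ⟨x, hx1, hx2⟩ := hmove p p' h12
      have hconj : ∀ r : G ⧸ NH, g • r = r → (x * g * x⁻¹) • (x • r) = x • r := fun r hr => by
        rw [mul_smul, mul_smul, inv_smul_smul, hr]
      obtain ⟨m, hm, hmd⟩ := htrans (x • p'') (fun e => h13 (MulAction.injective x (hx1.trans e.symm)))
      have hm1 : m ≠ 1 := fun e => h23 (MulAction.injective x (by simp only [hx2, ← hmd, e, one_smul]))
      exact conj_eq_one_iff.1 (hfix3 _ (hx1 ▸ hconj p e1) (hx2 ▸ hconj p' e2) m hm hm1
        (by rw [hmd]; exact hconj p'' e3))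
    haveI hfaith : FaithfulSMul G (G ⧸ NH) := ⟨fun {g g'} hgg => by
      obtain ⟨⟨x, hx⟩, hx1⟩ : ∃ x : H, x ≠ 1 := ⟨⟨z, hmemH.2 (Commute.refl z)⟩,
        fun e => h.z_ne (congrArg Subtype.val e)⟩
      have hfix : ∀ p : G ⧸ NH, (g'⁻¹ * g) • p = p := fun p => by
        rw [mul_smul, hgg p, inv_smul_smul]
      exact (inv_mul_eq_one.1 (hfix3 _ (hfix _) (hfix _) x hx (fun e => hx1 (Subtype.ext e)) (hfix _))).symm⟩
    have hsharp : ∀ p q' r p' q'' r' : G ⧸ NH, p ≠ q' → q' ≠ r → p ≠ r → p' ≠ q'' → q'' ≠ r' → p' ≠ r' →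
        ∃! g : G, g • p = p' ∧ g • q' = q'' ∧ g • r = r' := by
      intro p q' r p' q'' r' hpq hqr hpr hpq' hqr' hpr'
      have mk3 : ∀ x y w : G ⧸ NH, x ≠ y → y ≠ w → x ≠ w → Function.Injective ![x, y, w] := by
        intro x y w hxy hyw hxw i j
        fin_cases i <;> fin_cases j <;> simp [hxy, hyw, hxw, hxy.symm, hyw.symm, hxw.symm]
      let e0 : Fin 3 ↪ G ⧸ NH := ⟨![p, q', r], mk3 p q' r hpq hqr hpr⟩
      let e1 : Fin 3 ↪ G ⧸ NH := ⟨![p', q'', r'], mk3 p' q'' r' hpq' hqr' hpr'⟩
      let Φ : G → (Fin 3 ↪ G ⧸ NH) := fun g =>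
        e0.trans ⟨fun w => g • w, MulAction.injective g⟩
      have hinj : Function.Injective Φ := by
        intro g g' e
        have he : ∀ i : Fin 3, g • e0 i = g' • e0 i := fun i =>
          congrArg (fun F : Fin 3 ↪ G ⧸ NH => F i) e
        have h0 : g • p = g' • p := he 0
        have h1 : g • q' = g' • q' := he 1
        have h2 : g • r = g' • r := he 2
        exact (inv_mul_eq_one.1 (h3 (g'⁻¹ * g) p q' r hpq hqr hpr (by rw [mul_smul, h0, inv_smul_smul])
          (by rw [mul_smul, h1, inv_smul_smul]) (by rw [mul_smul, h2, inv_smul_smul]))).symm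
      have hbij : Function.Bijective Φ := by
        haveI := Fintype.ofFinite G
        rw [Fintype.bijective_iff_injective_and_card]
        refine ⟨hinj, ?_⟩
        rw [← Nat.card_eq_fintype_card, hGeq, Fintype.card_embedding_eq, hΩ, Fintype.card_fin]
        simp only [Nat.descFactorial_succ, Nat.descFactorial_zero]
        rw [show Q + 1 - 2 = 2 * a + 1 by omega, show Q + 1 - 1 = Q by omega,
          show Q + 1 - 0 = Q + 1 by omega]
        ring
      obtain ⟨g, hg⟩ := hbij.2 e1
      have he : ∀ i : Fin 3, g • e0 i = e1 i := fun i => congrArg (fun F : Fin 3 ↪ G ⧸ NH => F i) hg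
      refine ⟨g, ⟨he 0, he 1, he 2⟩, fun g' hg' => hinj ?_⟩
      ext i
      fin_cases i
      · exact hg'.1.trans (he 0).symm
      · exact hg'.2.1.trans (he 1).symm
      · exact hg'.2.2.trans (he 2).symm
    obtain ⟨F, iF, iFf, hF, ⟨e⟩⟩ := CfsgLib.AltGroups.sharply_three_transitive_odd_degree hsharp
      (by rw [hΩ]; exact ⟨a + 1, by omega⟩) (by omega)
    have hFQ : Fintype.card F = Q := by omega
    have hFe : Even (Fintype.card F) := ⟨a + 1, by omega⟩
    have h2 : (2 : F) = 0 := by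
      haveI : CharP F 2 := ringChar.of_eq (FiniteField.even_card_iff_char_two.2 (Nat.even_iff.1 hFe))
      exact CharP.cast_eq_zero F 2
    set iso : G ≃* Matrix.ProjectiveSpecialLinearGroup (Fin 2) F := e.trans
      (MulEquiv.ofBijective _ (CfsgLib.SharplyEven.SimpleZassenhaus.toPGL_bijective_of_even hFe)).symm with hiso
    refine ⟨F, iF, iFf, d + 1, by omega, ?_, ?_, ?_, ⟨iso⟩⟩
    · rw [pow_succ, ← hb, hba]; omega
    · -- `M` is cyclic
      let toSL : Matrix.ProjectiveSpecialLinearGroup (Fin 2) F ≃* Matrix.SpecialLinearGroup (Fin 2) F :=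
        (QuotientGroup.quotientMulEquivOfEq (center_SL_two_eq_bot h2)).trans QuotientGroup.quotientBot
      let f : M →* Matrix.SpecialLinearGroup (Fin 2) F := (iso.trans toSL).toMonoidHom.comp M.subtype
      have hfinj : Function.Injective f := (iso.trans toSL).injective.comp M.subtype_injective
      obtain ⟨m1, hm1⟩ := Subgroup.ne_bot_iff_exists_ne_one.1 h.ne
      have htr : CfsgLib.SL2.tr (f m1) ^ 2 ≠ 4 := by
        intro e4
        have e0 : CfsgLib.SL2.tr (f m1) = 0 := by
          rw [show (4 : F) = 2 * 2 by norm_num, h2, zero_mul] at e4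
          exact (pow_eq_zero_iff two_ne_zero).1 e4
        have := sq_eq_one_of_trace h2 (A := f m1)
          (by simpa [CfsgLib.SL2.tr, Matrix.trace_fin_two] using e0)
        rw [← map_mul] at this
        have e1 : m1 * m1 = 1 := hfinj (this.trans (map_one f).symm)
        exact hm1 (Subtype.ext (h.eq_one_of_sq m1.2 (congrArg Subtype.val e1)))
      haveI := CfsgLib.SL2.isCyclic_centralizer htr
      exact isCyclic_of_injective (f.codRestrict _ fun m => Subgroup.mem_centralizer_singleton_iff.2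
        (by rw [← map_mul, ← map_mul]; congr 1; exact Subtype.ext (h.comm m.2 m1.2)))
        (fun x y e => hfinj (congrArg Subtype.val e))
    · rw [pow_succ, ← hb, hba]; omega

end CfsgLib.TIInverted
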